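import Mathlib

/-!
Identities in characteristic two for the parameters of the two-generation of `SU₃(q)`.
Here `C = 1 + c` is the conjugate of `c` and `n = c C`.
-/

set_option autoImplicit false
set_option maxHeartbeats 1000000

namespace Cfsg.Agent.H87.SU3

variable {F : Type*} [Field F] {c n : F} (h2 : (2 : F) = 0) (hn : n = c * c + c) (hc0 : c ≠ 0)
  (hC0 : 1 + c ≠ 0) (hn0 : n ≠ 0)

include h2 hn hc0 hC0 hn0

theorem evenA_b : c ^ 2 / (1 + c) + (1 + c) ^ 3 / c + ((1 + c) ^ 2 / c + c ^ 3 / (1 + c)) = 1 := by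
  field_simp; grind

theorem evenA_d : c / n ^ 2 + (1 + c) / n ^ 2 = 1 / n ^ 2 := by
  field_simp; grind

theorem evenA_N : c / (1 + c) ^ 3 * ((1 + c) / c ^ 3) = 1 / n ^ 2 := by
  field_simp; grind

theorem evenA_A : (n + 1) / c ^ 2 =
    1 + c / (1 + c) ^ 3 + (c ^ 2 / (1 + c) + (1 + c) ^ 3 / c) * (c / n ^ 2) := by
  field_simp; grind

theorem evenA_mid :
    c / (1 + c) ^ 3 * ((n + 1) / c ^ 2) + (c / (1 + c) ^ 3 + c / n ^ 2) = 0 := by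
  field_simp; grind

theorem evenA_mu (hK : n + 1 ≠ 0) : (n + 1) / c ^ 2 * (1 / (n ^ 2 * (n + 1))) =
    c / n ^ 2 * ((n + 1) / c ^ 2) + (1 + c) / c ^ 3 * (c / (1 + c) ^ 3 + c / n ^ 2) + c / n ^ 2 := by
  field_simp; grind

theorem evenA_t (hK : n + 1 ≠ 0) (h : 1 / n ^ 2 + (n + 1) / c ^ 2 * ((n + 1) / (1 + c) ^ 2) *
    (1 / n ^ 2 * (1 / (n ^ 2 * (n + 1))) +
      1 / (n ^ 2 * (n + 1)) * (1 / (n ^ 2 * (n + 1))) + 1 / n ^ 2) = 0) : n * (1 + n) = 0 := by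
  field_simp at h
  grind

theorem evenB_b : c ^ 4 / (1 + c) + (1 + c) ^ 5 / c + ((1 + c) ^ 4 / c + c ^ 5 / (1 + c)) = 1 := by
  field_simp; grind

theorem evenB_d : c / n ^ 4 + (1 + c) / n ^ 4 = 1 / n ^ 4 := by
  field_simp; grind

theorem evenB_N : c / (1 + c) ^ 5 * ((1 + c) / c ^ 5) = 1 / n ^ 4 := by
  field_simp; grind

theorem evenB_t_eq : 1 / (n * c ^ 2) * (1 / (n * c ^ 2)) =
    (1 + c) / c ^ 5 * (1 / (n * (1 + c) ^ 2)) := by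
  field_simp; grind

theorem evenB_A : (1 + n + n ^ 2) / c ^ 4 =
    1 + c / (1 + c) ^ 5 + (c ^ 4 / (1 + c) + (1 + c) ^ 5 / c) * (c / n ^ 4) := by
  field_simp; grind

theorem evenB_mid :
    c / (1 + c) ^ 5 * ((1 + n + n ^ 2) / c ^ 4) + (c / (1 + c) ^ 5 + c / n ^ 4) = 0 := by
  field_simp; grind

theorem evenB_mu (hK : 1 + n + n ^ 2 ≠ 0) :
    (1 + n + n ^ 2) / c ^ 4 * ((1 + n ^ 2) / (n ^ 4 * (1 + n + n ^ 2))) =
    c / n ^ 4 * ((1 + n + n ^ 2) / c ^ 4) + (1 + c) / c ^ 5 * (c / (1 + c) ^ 5 + c / n ^ 4) +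
      c / n ^ 4 := by
  field_simp; grind

theorem evenB_t (hK : 1 + n + n ^ 2 ≠ 0)
    (h : 1 / n ^ 4 + (1 + n + n ^ 2) / c ^ 4 * ((1 + n + n ^ 2) / (1 + c) ^ 4) *
      (1 / n ^ 4 * ((1 + n ^ 2) / (n ^ 4 * (1 + n + n ^ 2))) +
        (1 + n ^ 2) / (n ^ 4 * (1 + n + n ^ 2)) * ((1 + n ^ 2) / (n ^ 4 * (1 + n + n ^ 2))) +
        1 / n ^ 4) = 0) :
    n * ((1 + n ^ 2) * (1 + n ^ 3)) = 0 := by
  field_simp at h
  grind

end Cfsg.Agent.H87.SU3
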