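import Cfsg.Agent.H87.SU3.OddCase
import Cfsg.Agent.H87.SU3.EvenIdentities

/-!
Two conjugate regular unipotents generate `SU₃(q)`, `q` even.
-/

set_option autoImplicit false

namespace Cfsg.Agent.H87.SU3

open Matrix Cfsg.Agent.H3 Cfsg.Agent.H1

variable {F : Type*} [Field F] [Fintype F] {q e : ℕ} (hF : Fintype.card F = q ^ 2)

local notation "h[" u ", " v "]" => Cfsg.hermForm 3 F q u v
local notation "σ" => conjQ hF
local notation "↟" g:max => ((Subtype.val g : Matrix.SpecialLinearGroup (Fin 3) F) :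
  Matrix (Fin 3) (Fin 3) F)

attribute [-simp] conjQ_apply

omit [Fintype F] in
lemma row_identities (h2 : (2 : F) = 0) {b s S d A μ : F} (hA : A = 1 + s + b * d)
    (hmid : s * A + (s + d) = 0) (hμ : A * μ = d * A + S * (s + d) + d) :
    1 + (s * 1 + 0) + b * (d * 1 - S * 0 + 0) = A ∧
    s * (1 + (s * 1 + 0) + b * (d * 1 - S * 0 + 0)) + ((s * 1 + 0) - (d * 1 - S * 0 + 0)) = 0 ∧
    d * (1 + (s * 1 + 0) + b * (d * 1 - S * 0 + 0)) - S * ((s * 1 + 0) - (d * 1 - S * 0 + 0)) +
      (d * 1 - S * 0 + 0) = A * μ := by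
  subst hA
  refine ⟨by ring, ?_, ?_⟩
  · linear_combination hmid - d * h2
  · linear_combination -hμ - (S * s) * h2

include hF

/-- Every element is `t² / σ t` when `3` does not divide `q + 1`. -/
lemma exists_t_of_coprime (hq : 3 ≤ q) (h3 : ¬ 3 ∣ q + 1) {a : F} (ha : a ≠ 0) :
    ∃ t : F, t ≠ 0 ∧ t * t = a * σ t := by
  have hcop : Nat.Coprime (q - 2) (q ^ 2 - 1) := by
    rw [show q ^ 2 - 1 = (q + 1) * (q - 1) by rw [← Nat.sq_sub_sq, one_pow]]
    refine Nat.Coprime.mul_right ?_ ?_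
    · rw [show q + 1 = 3 + (q - 2) by omega, Nat.coprime_add_self_right]
      refine (Nat.prime_three.coprime_iff_not_dvd.2 fun h => h3 ?_).symm
      omega
    · rw [show q - 1 = 1 + (q - 2) by omega, Nat.coprime_add_self_right]
      exact Nat.coprime_one_right _
  have hc : (Nat.card Fˣ).Coprime (q - 2) := by
    rw [Nat.card_units, Nat.card_eq_fintype_card, hF]; exact hcop.symm
  obtain ⟨v, hv⟩ := (powCoprime hc).surjective (Units.mk0 (a⁻¹) (inv_ne_zero ha))
  have hv' : (v : F) ^ (q - 2) = a⁻¹ := congrArg Units.val hv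
  refine ⟨v, v.ne_zero, ?_⟩
  rw [conjQ_apply hF (v : F), show (v : F) ^ q = (v : F) ^ (q - 2) * ((v : F) * v) by
    rw [← pow_two, ← pow_add, Nat.sub_add_cancel (by omega)], hv', ← mul_assoc,
    mul_inv_cancel₀ ha, one_mul]

set_option maxHeartbeats 1000000 in
lemma even_core (Φ : HFrame hF) (hq : 3 ≤ q) (h2 : (2 : F) = 0) {b s d t N A μ : F}
    (hb : b + σ b = 1) (hd : d + σ d = N) (hN : s * σ s = N) (hN0 : N ≠ 0) (ht0 : t ≠ 0)
    (hts : t * t = σ s * σ t) (hA : A = 1 + s + b * d) (hA0 : A ≠ 0)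
    (hmid : s * A + (s + d) = 0) (hμ : A * μ = d * A + σ s * (s + d) + d)
    (ht : N + A * σ A * (N * μ + μ * μ + N) ≠ 0)
    (hgen : ∀ K : Subfield F, N ∈ K → ∀ x : F, σ x = x → x ∈ K) : TwoGenerated F q := by
  have hneg : ∀ x : F, -x = x := fun x => by linear_combination (-x) * h2
  have hb' : b + σ b = -1 := by rw [hb, hneg]
  have hd' : d + σ d = -(s * σ s) := by rw [hd, hN, hneg]
  have hu : IsJ hF (uMat b) := isJ_uMat hF hb'
  have hv : IsJ hF (vMat hF s d) := isJ_vMat hF hd'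
  obtain ⟨g, hg⟩ := exists_conj hF Φ hu hv hb' hd' ht0 hts
  refine ⟨toSU hF Φ hu, g, regular_toSU hF Φ hu, ?_⟩
  rw [hg]
  set U := toSU hF Φ hu
  set V := toSU hF Φ hv
  set H := Subgroup.closure ({U, V} : Set (Cfsg.SU 3 F q)) with hH
  have hU : U ∈ H := Subgroup.subset_closure (by simp)
  have hV : V ∈ H := Subgroup.subset_closure (by simp)
  have hNσ : σ N = N := by rw [← hN, map_mul, sigma_two, mul_comm]
  have h1q : (1 : F) + 1 ^ q = 0 := by rw [one_pow]; linear_combination h2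
  have hNq : N + N ^ q = 0 := by rw [← conjQ_apply hF, hNσ]; linear_combination N * h2
  set E := vec hF Φ ![1, 0, 0] with hE
  set G := vec hF Φ ![0, 0, 1] with hG
  have hEE : h[E, E] = 0 := by rw [hE, vec_form]; simp [jForm]
  have hGG : h[G, G] = 0 := by rw [hG, vec_form]; simp [jForm]
  have hEG : h[E, G] = 1 := by rw [hE, hG, vec_form]; simp [jForm]
  have hTE : suTrans hF E 1 hEE h1q = U * U := by
    refine SU_ext_vec hF Φ fun x => ?_
    show Cfsg.unitaryTransvection 3 q E 1 *ᵥ vec hF Φ x = _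
    rw [unitaryTransvection_mulVec, hE, vec_form, SU_mul_val, ← Matrix.mulVec_mulVec, toSU_vec,
      toSU_vec, vec, vec, ← Matrix.mulVec_smul, ← Matrix.mulVec_add, vec]
    congr 1
    rw [uMat_mulVec, uMat_mulVec]
    ext i
    fin_cases i <;> simp [jForm] <;> grind
  have me : suTrans hF E 1 hEE h1q ∈ H := by rw [hTE]; exact mul_mem hU hU
  have hTG : suTrans hF G N hGG hNq = V * V := by
    refine SU_ext_vec hF Φ fun x => ?_
    show Cfsg.unitaryTransvection 3 q G N *ᵥ vec hF Φ x = _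
    rw [unitaryTransvection_mulVec, hG, vec_form, SU_mul_val, ← Matrix.mulVec_mulVec, toSU_vec,
      toSU_vec, vec, vec, ← Matrix.mulVec_smul, ← Matrix.mulVec_add, vec]
    congr 1
    rw [vMat_mulVec, vMat_mulVec]
    ext i
    fin_cases i <;> simp [jForm] <;> grind
  have mf : suTrans hF G N hGG hNq ∈ H := by rw [hTG]; exact mul_mem hV hV
  set R := E + μ • G with hR
  have hact : ↟(V * U * V) *ᵥ E = A • R := by
    rw [SU_mul_val, SU_mul_val, ← Matrix.mulVec_mulVec, ← Matrix.mulVec_mulVec, hE, toSU_vec,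
      toSU_vec, toSU_vec, hR, hE, hG, vec, vec, vec, ← Matrix.mulVec_smul, ← Matrix.mulVec_add,
      ← Matrix.mulVec_smul]
    congr 1
    rw [vMat_mulVec, uMat_mulVec, vMat_mulVec]
    obtain ⟨r0, r1, r2⟩ := row_identities h2 hA hmid hμ
    ext i
    fin_cases i <;> simp at r0 r1 r2 ⊢
    · linear_combination r0
    · linear_combination r1
    · linear_combination r2
  have hRR : h[R, R] = 0 := by
    have h1 : h[A • R, A • R] = 0 := by rw [← hact, mem_SU_iff.1 (V * U * V).2]; exact hEE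
    rw [hermForm_smul_left hF, hf_smul_right hF, ← mul_assoc] at h1
    exact (mul_eq_zero.1 h1).resolve_left (mul_ne_zero hA0 fun h => hA0 (sigma_eq_zero hF h))
  have hμσ : σ μ = μ := by
    have h1 := hRR
    rw [hR, hE, hG, vec, vec, ← Matrix.mulVec_smul, ← Matrix.mulVec_add, Φ.form] at h1
    simp [jForm] at h1
    linear_combination h1 - μ * h2
  have hρσ : σ (A * σ A) = A * σ A := by rw [map_mul, sigma_two, mul_comm]
  have hρq : A * σ A * 1 + (A * σ A * 1) ^ q = 0 := by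
    rw [← conjQ_apply hF, mul_one, hρσ]; linear_combination (A * σ A) * h2
  have mR := conj_mem_of_transv hF (mul_mem (mul_mem hV hU) hV) hEE h1q me hact hRR hρq
  simp only [mul_one] at mR
  have fE : SuFull H E := full_three_even hF h2 hEE hGG hEG hNσ hN0 hμσ hρσ
    (mul_ne_zero hA0 fun h => hA0 (sigma_eq_zero hF h)) h1q hNq
    (by rwa [mul_one] at hρq) hRR me mf mR ht hgen
  set z := ↟(suTrans hF G N hGG hNq) *ᵥ E with hz
  have fz : SuFull H z := fE.conj hF mf
  have hze : z = E + N • G := by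
    show Cfsg.unitaryTransvection 3 q G N *ᵥ E = _
    rw [unitaryTransvection_mulVec, hEG, mul_one]
  have hη : h[E, z] ≠ 0 := by
    rw [hze, hermForm_add_right hF, hf_smul_right hF, hEE, hEG, hNσ, mul_one, zero_add]
    exact hN0
  refine top_of_full hF hq fE fz hη (fz.conj hF hU) fun α β h => ?_
  have hzv : z = vec hF Φ (![1, 0, 0] + N • ![0, 0, 1]) := by
    rw [hze, hE, hG, vec, vec, vec, Matrix.mulVec_add, Matrix.mulVec_smul]
  rw [hzv, toSU_vec, hE, vec, vec, vec, ← Matrix.mulVec_smul, ← Matrix.mulVec_smul,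
    ← Matrix.mulVec_add] at h
  have h' := (Matrix.mulVec_injective_iff_isUnit.2 Φ.P.isUnit) h
  have q1 := congrFun h' 1
  simp [uMat_mulVec] at q1
  exact hN0 q1

/-- The characteristic two case. -/
theorem two_generated_even [CharP F 2] (hq : q = 2 ^ e) (he : 2 ≤ e) : TwoGenerated F q := by
  obtain ⟨Φ⟩ := exists_frame hF
  have h2 : (2 : F) = 0 := CharTwo.two_eq_zero
  have hq3 : 3 ≤ q := by
    rw [hq]; exact le_trans (by norm_num : 3 ≤ 2 ^ 2) (Nat.pow_le_pow_right (by norm_num) he)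
  obtain ⟨c, hc, hgen⟩ := exists_gen_even hF hq he h2
  obtain ⟨n, hn⟩ : ∃ n, n = c * c + c := ⟨_, rfl⟩
  rw [← hn] at hgen
  have hC : σ c = 1 + c := by linear_combination hc - c * h2
  have hnσ : σ n = n := by rw [hn, map_add, map_mul, hC]; linear_combination (1 + c) * h2
  have hinj : ∀ x y : F, x ^ 2 = y ^ 2 → x = y := fun x y h => by
    have : (x - y) ^ 2 = 0 := by linear_combination h + (y ^ 2 - x * y) * h2
    exact sub_eq_zero.1 (pow_eq_zero_iff two_ne_zero |>.1 this)
  have hgen' : ∀ i, 1 ≤ i → i < e → n ^ 2 ^ i ≠ n := by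
    intro i hi hie h
    have hz : σ (n ^ 2) = n ^ 2 := by rw [map_pow, hnσ]
    refine pow_ne_of_half (p := 2) (e := e) (z := n ^ 2) ?_ hgen i hi hie ?_
    · rw [← hq, ← conjQ_apply hF]; exact hz
    · rw [← pow_mul, mul_comm, pow_mul, h]
  have hn0 : n ≠ 0 := fun h => hgen' 1 le_rfl (by omega) (by rw [h]; simp)
  have hn1 : n ≠ 1 := fun h => hgen' 1 le_rfl (by omega) (by rw [h]; simp)
  have hc0 : c ≠ 0 := fun h => hn0 (by rw [hn, h]; ring)
  have hC0 : (1 : F) + c ≠ 0 := fun h => hn0 (by rw [hn]; linear_combination c * h)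
  have hfix : ∀ K : Subfield F, n ^ 2 ∈ K → ∀ x, σ x = x → x ∈ K := fun K hK =>
    fixed_mem_of_generator hF Nat.prime_two hq (by rw [map_pow, hnσ]) hgen K hK
  by_cases heven : Even e
  · obtain ⟨s, hsdef⟩ : ∃ s, s = c / (1 + c) ^ 3 := ⟨_, rfl⟩
    have hS : σ s = (1 + c) / c ^ 3 := by
      rw [hsdef, map_div₀, map_pow, map_add, map_one, hC]
      congr 2
      linear_combination h2
    have h3 : ¬ 3 ∣ q + 1 := by
      obtain ⟨k, rfl⟩ := heven
      intro h
      have h4 : q % 3 = 1 := by rw [hq, ← two_mul, pow_mul, Nat.pow_mod]; norm_num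
      omega
    obtain ⟨t, ht0, hts⟩ := exists_t_of_coprime hF hq3 h3 (a := σ s) (by
      rw [hS]; exact div_ne_zero hC0 (pow_ne_zero _ hc0))
    have hK : n + 1 ≠ 0 := fun h => hn1 (by linear_combination h - h2)
    refine even_core hF Φ hq3 h2 (b := c ^ 2 / (1 + c) + (1 + c) ^ 3 / c) (s := s)
      (d := c / n ^ 2) (N := 1 / n ^ 2) (A := (n + 1) / c ^ 2) (μ := 1 / (n ^ 2 * (n + 1)))
      ?_ ?_ ?_ (one_div_ne_zero (pow_ne_zero _ hn0)) ht0 hts ?_
      (div_ne_zero hK (pow_ne_zero _ hc0)) ?_ ?_ ?_ ?_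
    · simp only [map_add, map_div₀, map_pow, map_one, hC]
      rw [show (1 : F) + (1 + c) = c by linear_combination h2]
      exact evenA_b h2 hn hc0 hC0 hn0
    · rw [map_div₀, map_pow, hnσ, hC]; exact evenA_d h2 hn hc0 hC0 hn0
    · rw [hS, hsdef]; exact evenA_N h2 hn hc0 hC0 hn0
    · rw [hsdef]; exact evenA_A h2 hn hc0 hC0 hn0
    · rw [hsdef]; exact evenA_mid h2 hn hc0 hC0 hn0
    · rw [hS, hsdef]; exact evenA_mu h2 hn hc0 hC0 hn0 hK
    · rw [map_div₀, map_pow, map_add, map_one, hnσ, hC]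
      intro h
      rcases mul_eq_zero.1 (evenA_t h2 hn hc0 hC0 hn0 hK h) with h' | h'
      · exact hn0 h'
      · exact hK (by linear_combination h')
    · intro K hK'
      refine hfix K ?_
      simpa using K.inv_mem hK'
  · have he3 : 3 ≤ e := by
      rcases Nat.lt_or_ge e 3 with h | h
      · exact absurd (by omega : e = 2) fun h2' => heven (by rw [h2']; exact even_two)
      · exact h
    obtain ⟨s, hsdef⟩ : ∃ s, s = c / (1 + c) ^ 5 := ⟨_, rfl⟩
    have hS : σ s = (1 + c) / c ^ 5 := by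
      rw [hsdef, map_div₀, map_pow, map_add, map_one, hC]
      congr 2
      linear_combination h2
    have hn3 : n ^ 3 ≠ 1 := fun h => hgen' 2 (by norm_num) (by omega) (by
      norm_num
      linear_combination n * h)
    have hK : 1 + n + n ^ 2 ≠ 0 := fun h => hn3 (by linear_combination (n - 1) * h)
    refine even_core hF Φ hq3 h2 (b := c ^ 4 / (1 + c) + (1 + c) ^ 5 / c) (s := s)
      (d := c / n ^ 4) (N := 1 / n ^ 4) (A := (1 + n + n ^ 2) / c ^ 4)
      (μ := (1 + n ^ 2) / (n ^ 4 * (1 + n + n ^ 2))) (t := 1 / (n * c ^ 2))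
      ?_ ?_ ?_ (one_div_ne_zero (pow_ne_zero _ hn0))
      (one_div_ne_zero (mul_ne_zero hn0 (pow_ne_zero _ hc0))) ?_ ?_
      (div_ne_zero hK (pow_ne_zero _ hc0)) ?_ ?_ ?_ ?_
    · simp only [map_add, map_div₀, map_pow, map_one, hC]
      rw [show (1 : F) + (1 + c) = c by linear_combination h2]
      exact evenB_b h2 hn hc0 hC0 hn0
    · rw [map_div₀, map_pow, hnσ, hC]; exact evenB_d h2 hn hc0 hC0 hn0
    · rw [hS, hsdef]; exact evenB_N h2 hn hc0 hC0 hn0
    · rw [hS, map_div₀, map_one, map_mul, map_pow, hnσ, hC]; exact evenB_t_eq h2 hn hc0 hC0 hn0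
    · rw [hsdef]; exact evenB_A h2 hn hc0 hC0 hn0
    · rw [hsdef]; exact evenB_mid h2 hn hc0 hC0 hn0
    · rw [hS, hsdef]; exact evenB_mu h2 hn hc0 hC0 hn0 hK
    · rw [map_div₀, map_pow, map_add, map_add, map_one, map_pow, hnσ, hC]
      intro h
      have key := evenB_t h2 hn hc0 hC0 hn0 hK h
      rcases mul_eq_zero.1 key with h' | h'
      · exact hn0 h'
      rcases mul_eq_zero.1 h' with h'' | h''
      · exact hn1 (hinj _ _ (by linear_combination h'' - h2))
      · exact hn3 (by linear_combination h'' - h2)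
    · intro K hK'
      refine fixed_mem_of_generator hF Nat.prime_two hq (z := n ^ 4) (by rw [map_pow, hnσ]) ?_ K
        (by simpa using K.inv_mem hK')
      intro i hi hie h
      refine hgen i hi hie (hinj _ _ ?_)
      rw [← pow_mul, ← pow_mul, ← pow_mul]
      rw [← pow_mul] at h
      convert h using 2 <;> ring

end Cfsg.Agent.H87.SU3
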