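import Cfsg.Agent.H1.SuThreeFields

/-!
Field elements for the two-generation of `SU₃(q)`.
-/

set_option autoImplicit false

namespace Cfsg.Agent.H87.SU3

open Cfsg.Agent.H3 Cfsg.Agent.H1 Polynomial

variable {F : Type*} [Field F] [Fintype F] {q p e : ℕ} (hF : Fintype.card F = q ^ 2)

local notation "σ" => conjQ hF

attribute [-simp] conjQ_apply

include hF

omit hF in
lemma card_roots_le (P : F[X]) (hP : P ≠ 0) (S : Finset F) (h : ∀ x ∈ S, P.eval x = 0) :
    S.card ≤ P.natDegree := by
  classical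
  refine le_trans (Finset.card_le_card (t := P.roots.toFinset) fun x hx => ?_)
    ((Multiset.toFinset_card_le _).trans (card_roots' P))
  rw [Multiset.mem_toFinset, mem_roots hP]
  exact h x hx

lemma card_fixed_finset [DecidableEq F] :
    (Finset.univ.filter fun x : F => σ x = x).card = q := by
  rw [← Fintype.card_subtype, ← Nat.card_eq_fintype_card]
  refine Eq.trans ?_ (card_fixed hF)
  exact Nat.card_congr (Equiv.subtypeEquivRight fun x => by rw [conjQ_apply])

lemma exists_sqrt (hodd : Odd q) {z : F} (hz : σ z = z) : ∃ δ : F, δ * δ = z := by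
  by_cases hz0 : z = 0
  · exact ⟨0, by rw [hz0, mul_zero]⟩
  obtain ⟨m, rfl⟩ := hodd
  have hchar : ringChar F ≠ 2 := by
    intro h
    have := FiniteField.even_card_of_char_two h
    rw [hF] at this
    simp [Nat.pow_mod, Nat.add_mod] at this
  obtain ⟨δ, hδ⟩ := (FiniteField.isSquare_iff hchar hz0).2 (by
    have h1 : z ^ (2 * m) = 1 := by
      refine mul_right_cancel₀ hz0 ?_
      rw [one_mul, ← pow_succ, ← conjQ_apply hF, hz]
    rw [hF, show (2 * m + 1) ^ 2 / 2 = 2 * m * (m + 1) by
      rw [show (2 * m + 1) ^ 2 = 2 * (2 * m * (m + 1)) + 1 by ring]; omega, pow_mul, h1, one_pow])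
  exact ⟨δ, hδ.symm⟩

/-- At most half of the fixed elements `w` make `1 + w²` a square in the fixed field. -/
lemma card_square_le (h2 : (2 : F) ≠ 0) [DecidableEq F] :
    2 * (Finset.univ.filter fun w : F => σ w = w ∧ ∃ z, σ z = z ∧ z * z = 1 + w * w).card ≤
      q + 1 := by
  set T := Finset.univ.filter fun t : F => σ t = t ∧ t ≠ 0 with hT
  have hTc : T.card + 1 = q := by
    rw [← card_fixed_finset hF, show T = (Finset.univ.filter fun x : F => σ x = x).erase 0 by
      ext; simp [hT, and_comm],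
      Finset.card_erase_add_one (by simp)]
  set R := T.filter fun t => t * t = -1 with hR
  have hR2 : R.card ≤ 2 := by
    refine (card_roots_le (X ^ 2 - C (-1) : F[X]) ?_ R ?_).trans (natDegree_X_pow_sub_C).le
    · exact X_pow_sub_C_ne_zero two_pos _
    · intro t ht
      rw [hR, Finset.mem_filter] at ht
      simp [pow_two, ht.2]
  let Φ : F → F := fun t => (t - t⁻¹) / 2
  have hsub : (Finset.univ.filter fun w : F => σ w = w ∧ ∃ z, σ z = z ∧ z * z = 1 + w * w) ⊆
      (T \ R).image Φ ∪ R.image Φ := by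
    intro w hw
    rw [Finset.mem_filter] at hw
    obtain ⟨hwf, z, hzf, hz⟩ := hw.2
    rw [← Finset.image_union, Finset.sdiff_union_of_subset (Finset.filter_subset _ _)]
    have ht0 : z + w ≠ 0 := fun h => one_ne_zero (show (1 : F) = 0 by
      linear_combination -hz + (z - w) * h)
    refine Finset.mem_image.2 ⟨z + w, by simp [hT, map_add, hzf, hwf, ht0], ?_⟩
    have : (z + w)⁻¹ = z - w := inv_eq_of_mul_eq_one_right (by linear_combination hz)
    show (z + w - (z + w)⁻¹) / 2 = w
    rw [this]; field_simp; ring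
  have hfib : 2 * ((T \ R).image Φ).card ≤ (T \ R).card := by
    refine Finset.mul_card_image_le_card (T \ R) 2 fun w hw => ?_
    obtain ⟨t, ht, rfl⟩ := Finset.mem_image.1 hw
    rw [Finset.mem_sdiff] at ht
    replace ht : t ∈ T ∧ (t ∈ T → ¬ t * t = -1) :=
      ⟨ht.1, fun h1 h2' => ht.2 (by rw [hR, Finset.mem_filter]; exact ⟨h1, h2'⟩)⟩
    have htT := ht.1
    rw [hT, Finset.mem_filter] at htT
    have ht0 := htT.2.2
    have hne : t ≠ -t⁻¹ := fun h => ht.2 ht.1 (by
      have := congrArg (fun x => t * x) h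
      simpa [ht0] using this)
    calc 2 = ({t, -t⁻¹} : Finset F).card := (Finset.card_pair hne).symm
      _ ≤ _ := Finset.card_le_card fun x hx => by
        simp only [Finset.mem_insert, Finset.mem_singleton] at hx
        rcases hx with rfl | rfl
        · simp [hT, hR, htT.2.1, ht0, ht.2 ht.1]
        · simp only [hT, hR, Finset.mem_filter, Finset.mem_sdiff, Finset.mem_univ, true_and,
            not_and]
          refine ⟨⟨⟨by rw [map_neg, map_inv₀, htT.2.1], by simp [ht0]⟩, fun _ h => ht.2 ht.1 ?_⟩,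
            by simp [Φ]; ring⟩
          field_simp at h
          linear_combination h
  have hle := (Finset.card_le_card hsub).trans (Finset.card_union_le _ _)
  have hRi : (R.image Φ).card ≤ R.card := Finset.card_image_le
  have hsplit : (T \ R).card + R.card = T.card :=
    Finset.card_sdiff_add_card_eq_card (Finset.filter_subset _ _)
  omega

omit hF in
lemma gen_bound {p h : ℕ} (hp : 3 ≤ p) : 2 * (∑ i ∈ Finset.Icc 1 h, p ^ i) + 3 ≤ 3 * p ^ h := by
  induction h with
  | zero => simp
  | succ h ih =>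
    rw [Finset.sum_Icc_succ_top (by omega), pow_succ]
    have : 3 * p ^ h ≤ p * p ^ h := Nat.mul_le_mul_right _ hp
    nlinarith [Nat.one_le_pow h p (by omega)]

/-- The parameters in odd characteristic. -/
theorem exists_odd_params [CharP F p] (hp : p.Prime) (hp2 : p ≠ 2) (hq : q = p ^ e) (he : 1 ≤ e) :
    ∃ w δ : F, σ w = w ∧ σ δ = -δ ∧ δ ≠ 0 ∧ δ * δ = 1 + w * w ∧ 3 * (δ * δ) + 1 ≠ 0 ∧
      ∀ i, 1 ≤ i → 2 * i ≤ e → (δ * δ) ^ p ^ i ≠ δ * δ := by
  classical
  have := Fact.mk hp
  have h3p : 3 ≤ p := by have := hp.two_le; omega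
  have h2 : (2 : F) ≠ 0 := fun h => hp2 ((Nat.prime_dvd_prime_iff_eq hp Nat.prime_two).1
    ((CharP.cast_eq_zero_iff F p 2).1 (by exact_mod_cast h)))
  have hodd : Odd q := hq ▸ (hp.odd_of_ne_two hp2).pow
  have ofz : ∀ w : F, σ w = w → (¬ ∃ z, σ z = z ∧ z * z = 1 + w * w) →
      ∃ δ : F, σ δ = -δ ∧ δ ≠ 0 ∧ δ * δ = 1 + w * w := by
    intro w hw hno
    have hy : σ (1 + w * w) = 1 + w * w := by rw [map_add, map_one, map_mul, hw]
    obtain ⟨δ, hδ⟩ := exists_sqrt hF hodd hy
    have hd : σ δ * σ δ = δ * δ := by rw [← map_mul, hδ, hy]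
    rcases mul_self_eq_mul_self_iff.1 hd with h | h
    · exact absurd ⟨δ, h, hδ⟩ hno
    · exact ⟨δ, h, fun h0 => hno ⟨δ, by rw [h0, map_zero], hδ⟩, hδ⟩
  by_cases heven : Even e
  · -- a primitive element works
    have hq4 : q % 4 = 1 := by
      obtain ⟨k, rfl⟩ := heven
      rw [hq, ← two_mul, pow_mul, Nat.pow_mod]
      obtain ⟨m, hm⟩ := hp.odd_of_ne_two hp2
      have : p ^ 2 % 4 = 1 := by
        rw [hm, show (2 * m + 1) ^ 2 = 4 * (m * m + m) + 1 by ring]; omega
      rw [this, one_pow]; rfl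
    obtain ⟨x, δ, hx0, hδ0, hxf, hord, hodd'⟩ := exists_fixed_primitive hF
    obtain ⟨hδ, hδσ⟩ := hodd' hodd
    have main : ∀ y d : F, d ≠ 0 → σ d = -d → d * d = y → (∀ j, y ^ j = 1 → q - 1 ∣ j) →
        (∃ w, σ w = w ∧ w * w = y - 1) →
        ∃ w δ : F, σ w = w ∧ σ δ = -δ ∧ δ ≠ 0 ∧ δ * δ = 1 + w * w ∧ 3 * (δ * δ) + 1 ≠ 0 ∧
          ∀ i, 1 ≤ i → 2 * i ≤ e → (δ * δ) ^ p ^ i ≠ δ * δ := by
      rintro y d hd hdσ hdy hy ⟨w, hw, hwy⟩
      have hy0 : y ≠ 0 := hdy ▸ mul_ne_zero hd hd
      have key : ∀ i, 1 ≤ i → i < e → y ^ p ^ i ≠ y := by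
        intro i hi hie h
        have hlt : p ^ i < q := hq ▸ (Nat.pow_lt_pow_right hp.one_lt hie)
        have h1 : y ^ (p ^ i - 1) = 1 := by
          apply mul_right_cancel₀ hy0
          rw [one_mul, ← pow_succ, Nat.sub_add_cancel (Nat.one_le_pow _ _ hp.pos), h]
        have h1i : 1 < p ^ i := Nat.one_lt_pow (by omega) hp.one_lt
        have := Nat.le_of_dvd (by omega) (hy _ h1)
        omega
      refine ⟨w, d, hw, hdσ, hd, by linear_combination hdy - hwy, ?_, fun i hi hie => hdy ▸
        key i hi (by omega)⟩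
      rw [hdy]
      intro h3
      obtain ⟨k, hk⟩ := heven
      refine key 1 le_rfl (by omega) ?_
      -- `y` lies in the prime field
      have e3 : (3 : F) ≠ 0 := fun h => one_ne_zero (show (1 : F) = 0 by linear_combination h3 - y * h)
      have ey : y = -1 / 3 := by field_simp; linear_combination h3
      rw [pow_one, ey, div_pow, show (3 : F) = ((3 : ℕ) : F) by norm_num, ← frobenius_def,
        ← frobenius_def, map_neg, map_one, map_natCast]
    by_cases h1 : ∃ w, σ w = w ∧ w * w = x - 1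
    · exact main x δ hδ0 hδσ hδ hord h1
    refine main x⁻¹ δ⁻¹ (inv_ne_zero hδ0) (by rw [map_inv₀, hδσ, inv_neg])
      (by rw [← mul_inv, hδ]) (fun j hj => hord j (by rwa [inv_pow, inv_eq_one] at hj)) ?_
    by_contra h2'
    have hx1 : σ (x - 1) = x - 1 := by rw [map_sub, map_one, hxf]
    have hx1' : σ (x⁻¹ - 1) = x⁻¹ - 1 := by rw [map_sub, map_one, map_inv₀, hxf]
    have imag : ∀ z : F, σ z = z → (¬ ∃ w, σ w = w ∧ w * w = z) →
        ∃ ε, σ ε = -ε ∧ ε * ε = z := by
      intro z hz hno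
      obtain ⟨ε, hε⟩ := exists_sqrt hF hodd hz
      have hd : σ ε * σ ε = ε * ε := by rw [← map_mul, hε, hz]
      rcases mul_self_eq_mul_self_iff.1 hd with h | h
      · exact absurd ⟨ε, h, hε⟩ hno
      · exact ⟨ε, h, hε⟩
    obtain ⟨a, haσ, ha⟩ := imag _ hx1 h1
    obtain ⟨b, hbσ, hb⟩ := imag _ hx1' h2'
    have hxne : x - 1 ≠ 0 := fun h => h1 ⟨0, map_zero _, by rw [mul_zero, h]⟩
    set i := a * b * δ / (x - 1) with hi
    have hiσ : σ i = -i := by
      rw [hi, map_div₀, map_mul, map_mul, haσ, hbσ, hδσ, hx1]; ring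
    have hi2 : i * i = -1 := by
      rw [hi]
      field_simp
      have : b * b * x = 1 - x := by rw [hb]; field_simp
      linear_combination (δ * δ * b * b) * ha + ((x - 1) * b * b) * hδ + (x - 1) * this
    have : σ i = i := by
      rw [conjQ_apply, show q = 2 * (2 * (q / 4)) + 1 by omega, pow_succ, pow_mul, pow_two, hi2,
        pow_mul, neg_one_sq, one_pow, one_mul]
    rw [hiσ] at this
    have hi0 : i = 0 := by
      refine (mul_eq_zero.1 (show 2 * i = 0 by linear_combination -this)).resolve_left h2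
    rw [hi0, mul_zero] at hi2
    exact one_ne_zero (show (1 : F) = 0 by linear_combination hi2)
  -- counting
  obtain ⟨h, rfl⟩ : ∃ h, e = 2 * h + 1 := Nat.not_even_iff_odd.1 heven
  by_cases hp5 : p = 5 ∧ h = 0
  · obtain ⟨rfl, rfl⟩ := hp5
    have hq5 : q = 5 := by rw [hq]; norm_num
    obtain ⟨δ, h1, h2', h3⟩ := ofz 1 (map_one _) (by
      rintro ⟨z, hz, hzz⟩
      have h4 : z ^ 4 = 1 := by
        have hz0 : z ≠ 0 := fun h0 => h2 (by rw [h0, mul_zero] at hzz; linear_combination -hzz)
        apply mul_right_cancel₀ hz0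
        rw [← pow_succ, one_mul, show 4 + 1 = q by omega, ← conjQ_apply hF, hz]
      have : (3 : F) = 0 := by
        linear_combination h4 - (z * z + 1 + 1) * hzz
      have := (CharP.cast_eq_zero_iff F 5 3).1 (by exact_mod_cast this)
      omega)
    refine ⟨1, δ, map_one _, h1, h2', h3, ?_, fun i hi hie => by omega⟩
    rw [h3]
    intro h0
    have := (CharP.cast_eq_zero_iff F 5 7).1 (by push_cast; linear_combination h0)
    omega
  set S := Finset.univ.filter fun w : F => σ w = w ∧ ∃ z, σ z = z ∧ z * z = 1 + w * w with hS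
  set B₁ := (Finset.Icc 1 h).biUnion fun i =>
    Finset.univ.filter fun w : F => (w * w) ^ p ^ i = w * w with hB₁
  set B₂ := Finset.univ.filter fun w : F => 3 * (1 + w * w) + 1 = 0 with hB₂
  have hB₁c : B₁.card ≤ 2 * ∑ i ∈ Finset.Icc 1 h, p ^ i := by
    rw [Finset.mul_sum]
    refine Finset.card_biUnion_le.trans (Finset.sum_le_sum fun i hi => ?_)
    have hi1 : 1 ≤ i := (Finset.mem_Icc.1 hi).1
    have h2pi : 2 < 2 * p ^ i := by have := Nat.one_lt_pow (n := i) (by omega) hp.one_lt; omega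
    have hdeg : (X ^ 2 : F[X]).degree < (2 * p ^ i : ℕ) := by
      rw [degree_X_pow]; exact_mod_cast h2pi
    refine (card_roots_le (X ^ (2 * p ^ i) - X ^ 2 : F[X]) ?_ _ ?_).trans ?_
    · exact (monic_X_pow_sub hdeg).ne_zero
    · intro w hw
      rw [Finset.mem_filter] at hw
      simp [pow_mul, pow_two, hw.2]
    · exact (natDegree_sub_le _ _).trans (max_le (natDegree_X_pow_le _)
        ((natDegree_X_pow_le _).trans h2pi.le))
  have hB₂c : B₂.card ≤ 2 := by
    refine (card_roots_le (C 3 * (1 + X ^ 2) + 1 : F[X]) ?_ _ ?_).trans ?_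
    · intro h0
      have h4 := congrArg (eval 0) h0
      have h4' := congrArg (eval 1) h0
      simp at h4 h4'
      exact h2 (by
        have : (3 : F) = 0 := by linear_combination h4' - h4
        exfalso
        exact one_ne_zero (show (1 : F) = 0 by linear_combination h4 - this))
    · intro w hw
      rw [Finset.mem_filter] at hw
      simp only [eval_add, eval_mul, eval_C, eval_one, eval_pow, eval_X]
      linear_combination hw.2
    · refine (natDegree_add_le _ _).trans (max_le (natDegree_C_mul_le _ _ |>.trans ?_) (by simp))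
      exact (natDegree_add_le _ _).trans (max_le (by simp) (natDegree_X_pow_le _))
  have hB₂3 : p = 3 → B₂ = ∅ := by
    rintro rfl
    have : (3 : F) = 0 := by exact_mod_cast CharP.cast_eq_zero F 3
    refine Finset.filter_eq_empty_iff.2 fun w _ h => one_ne_zero (show (1 : F) = 0 by
      linear_combination h - (1 + w * w) * this)
  have hlt : (S ∪ B₁ ∪ B₂).card < (Finset.univ.filter fun x : F => σ x = x).card := by
    rw [card_fixed_finset hF]
    refine lt_of_le_of_lt ((Finset.card_union_le _ _).trans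
      (Nat.add_le_add_right (Finset.card_union_le _ _) _)) ?_
    have hs := card_square_le hF h2
    rw [← hS] at hs
    have hb := gen_bound (h := h) h3p
    have hq' : q = p * (p ^ h * p ^ h) := by rw [hq]; ring
    rcases Nat.eq_zero_or_pos h with rfl | hh
    · rw [Finset.Icc_eq_empty (by omega), Finset.sum_empty] at hB₁c
      rw [pow_zero] at hq'
      rcases eq_or_ne p 3 with h3 | h3
      · have := hB₂3 h3
        rw [this, Finset.card_empty]; omega
      · have : 7 ≤ p := by
          rcases Nat.lt_or_ge p 7 with h7 | h7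
          · interval_cases p <;> first | omega | (exfalso; exact hp5 ⟨rfl, rfl⟩) | norm_num at hp
          · exact h7
        omega
    · have hx : 3 ≤ p ^ h := h3p.trans (Nat.le_self_pow (by omega) p)
      have h9 : 9 * p ^ h ≤ p * (p ^ h * p ^ h) := by
        rw [← mul_assoc]
        refine Nat.mul_le_mul_right _ ?_
        exact Nat.mul_le_mul h3p hx
      omega
  obtain ⟨w, hwf, hw⟩ := Finset.exists_mem_notMem_of_card_lt_card hlt
  rw [Finset.mem_filter] at hwf
  simp only [Finset.mem_union, not_or] at hw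
  obtain ⟨δ, h1, h2', h3⟩ := ofz w hwf.2 (fun hz => hw.1.1 (by
    rw [hS, Finset.mem_filter]; exact ⟨Finset.mem_univ _, hwf.2, hz⟩))
  refine ⟨w, δ, hwf.2, h1, h2', h3, ?_, fun i hi hie h => hw.1.2 ?_⟩
  · rw [h3]
    exact fun h0 => hw.2 (by rw [hB₂, Finset.mem_filter]; exact ⟨Finset.mem_univ _, h0⟩)
  · rw [hB₁, Finset.mem_biUnion]
    refine ⟨i, Finset.mem_Icc.2 ⟨hi, by omega⟩, Finset.mem_filter.2 ⟨Finset.mem_univ _, ?_⟩⟩
    rw [h3, add_pow_char_pow, one_pow] at h
    exact add_left_cancel h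

end Cfsg.Agent.H87.SU3
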