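import Cfsg.Agent.H87.SU3.Plane
import Cfsg.Agent.H1.SuTransvClosure
import Cfsg.Agent.H1.SuThreeFields
import Cfsg.Agent.H1.SuThreeGen

/-!
A hyperbolic frame of the three-dimensional unitary space and unipotent elements in it.
-/

set_option autoImplicit false

namespace Cfsg.Agent.H87.SU3

open Matrix Cfsg.Agent.H3 Cfsg.Agent.H1

variable {F : Type*} [Field F] [Fintype F] {q : ℕ} (hF : Fintype.card F = q ^ 2)

local notation "h[" u ", " v "]" => Cfsg.hermForm 3 F q u v
local notation "σ" => conjQ hF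
local notation "↟" g:max => ((Subtype.val g : Matrix.SpecialLinearGroup (Fin 3) F) :
  Matrix (Fin 3) (Fin 3) F)
local notation "M₃" => Matrix (Fin 3) (Fin 3) F

attribute [-simp] conjQ_apply

/-- The antidiagonal form. -/
def jForm (x y : Fin 3 → F) : F := x 0 * σ (y 2) + x 1 * σ (y 1) + x 2 * σ (y 0)

/-- A matrix preserves the antidiagonal form and has determinant one. -/
def IsJ (M : M₃) : Prop :=
  M.det = 1 ∧ ∀ x y, jForm hF (M *ᵥ x) (M *ᵥ y) = jForm hF x y

/-- A frame for the standard form. -/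
structure HFrame where
  /-- the change of basis -/
  P : GL (Fin 3) F
  form : ∀ x y, h[(P : M₃) *ᵥ x, (P : M₃) *ᵥ y] = jForm hF x y

include hF

theorem exists_frame : Nonempty (HFrame hF) := by
  obtain ⟨a, ha⟩ := exists_norm_eq hF (μ := (-1 : F)) (by rw [← conjQ_apply hF, map_neg, map_one])
  rw [pow_succ', ← conjQ_apply hF] at ha
  obtain ⟨g, hg⟩ := exists_trace_one hF
  have ha0 : a ≠ 0 := fun h => by rw [h, zero_mul] at ha; simp at ha
  let Q : M₃ := !![1, 0, g; a, 0, a * (g - 1); 0, 1, 0]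
  have hdet : Q.det ≠ 0 := by
    rw [Matrix.det_fin_three]
    simp [Q]
    intro h
    exact ha0 (by linear_combination h)
  refine ⟨⟨GeneralLinearGroup.mkOfDetNeZero Q hdet, fun x y => ?_⟩⟩
  simp only [Cfsg.hermForm, jForm, Fin.sum_univ_three, ← conjQ_apply hF]
  simp [Q, Matrix.mulVec, dotProduct, Fin.sum_univ_three, map_add, map_mul, map_sub, map_one]
  linear_combination (x 0 * σ (y 0) + x 0 * σ (y 2) * (σ g - 1) + x 2 * σ (y 0) * (g - 1) +
    x 2 * σ (y 2) * ((g - 1) * (σ g - 1))) * ha + (x 2 * σ (y 2)) * hg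

variable (Φ : HFrame hF)

/-- The standard-coordinate vector with given frame coordinates. -/
def vec (x : Fin 3 → F) : Fin 3 → F := (Φ.P : M₃) *ᵥ x

lemma vec_form (x y : Fin 3 → F) : h[vec hF Φ x, vec hF Φ y] = jForm hF x y := Φ.form x y

lemma vec_inv (x : Fin 3 → F) : ∃ y, vec hF Φ y = x :=
  ⟨((Φ.P⁻¹ : GL (Fin 3) F) : M₃) *ᵥ x, by
    rw [vec, Matrix.mulVec_mulVec, Units.mul_inv, Matrix.one_mulVec]⟩

/-- Transport a frame matrix to the special unitary group. -/
def toSU {M : M₃} (hM : IsJ hF M) : Cfsg.SU 3 F q :=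
  ⟨⟨(Φ.P : M₃) * M * ((Φ.P⁻¹ : GL (Fin 3) F) : M₃), by
    rw [Matrix.det_mul, Matrix.det_mul, hM.1, mul_one, ← Matrix.det_mul, Units.mul_inv,
      Matrix.det_one]⟩, mem_SU_iff.2 fun x y => by
    obtain ⟨x', rfl⟩ := vec_inv hF Φ x
    obtain ⟨y', rfl⟩ := vec_inv hF Φ y
    show h[((Φ.P : M₃) * M * ((Φ.P⁻¹ : GL (Fin 3) F) : M₃)) *ᵥ ((Φ.P : M₃) *ᵥ x'),
      ((Φ.P : M₃) * M * ((Φ.P⁻¹ : GL (Fin 3) F) : M₃)) *ᵥ ((Φ.P : M₃) *ᵥ y')] =
      h[(Φ.P : M₃) *ᵥ x', (Φ.P : M₃) *ᵥ y']
    simp only [Matrix.mulVec_mulVec, Units.inv_mul_cancel_right]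
    rw [← Matrix.mulVec_mulVec, ← Matrix.mulVec_mulVec, Φ.form, Φ.form]
    exact hM.2 x' y'⟩

lemma toSU_val {M : M₃} (hM : IsJ hF M) :
    ↟(toSU hF Φ hM) = (Φ.P : M₃) * M * ((Φ.P⁻¹ : GL (Fin 3) F) : M₃) := rfl

lemma toSU_vec {M : M₃} (hM : IsJ hF M) (x : Fin 3 → F) :
    ↟(toSU hF Φ hM) *ᵥ vec hF Φ x = vec hF Φ (M *ᵥ x) := by
  rw [toSU_val, vec, vec, Matrix.mulVec_mulVec, Units.inv_mul_cancel_right,
    ← Matrix.mulVec_mulVec]

lemma SU_ext_vec {A B : Cfsg.SU 3 F q} (h : ∀ x, ↟A *ᵥ vec hF Φ x = ↟B *ᵥ vec hF Φ x) : A = B := by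
  refine SU_ext (Matrix.ext_of_mulVec_single fun i => ?_)
  obtain ⟨y, hy⟩ := vec_inv hF Φ (Pi.single i 1)
  rw [← hy]
  exact h y

omit [Fintype F] hF in
lemma cube_eq_zero {N : M₃} (a b c : F) (h : N = !![0, a, b; 0, 0, c; 0, 0, 0]) : N ^ 3 = 0 := by
  subst h
  ext i j
  fin_cases i <;> fin_cases j <;> simp [pow_succ, Matrix.mul_apply, Fin.sum_univ_three]

/-- The upper regular unipotent. -/
def uMat (b : F) : M₃ := !![1, 1, b; 0, 1, -1; 0, 0, 1]

/-- The lower regular unipotent. -/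
def vMat (s d : F) : M₃ := !![1, 0, 0; s, 1, 0; d, -σ s, 1]

lemma isJ_uMat {b : F} (hb : b + σ b = -1) : IsJ hF (uMat b) := by
  refine ⟨by simp [uMat, Matrix.det_fin_three], fun x y => ?_⟩
  simp [uMat, jForm, Matrix.mulVec, dotProduct, Fin.sum_univ_three, map_add, map_mul, map_neg]
  linear_combination (x 2 * σ (y 2)) * hb

lemma isJ_vMat {s d : F} (hd : d + σ d = -(s * σ s)) : IsJ hF (vMat hF s d) := by
  refine ⟨by simp [vMat, Matrix.det_fin_three], fun x y => ?_⟩
  simp [vMat, jForm, Matrix.mulVec, dotProduct, Fin.sum_univ_three, map_add, map_mul, map_neg,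
    sigma_two]
  linear_combination (x 0 * σ (y 0)) * hd

/-- The upper unipotent is regular. -/
lemma regular_toSU {b : F} (hu : IsJ hF (uMat b)) :
    IsNilpotent (↟(toSU hF Φ hu) - 1) ∧ (↟(toSU hF Φ hu) - 1) ^ (3 - 1) ≠ 0 := by
  set P := (Φ.P : M₃)
  set Q := ((Φ.P⁻¹ : GL (Fin 3) F) : M₃)
  have hPQ : P * Q = 1 := Units.mul_inv Φ.P
  have hQP : Q * P = 1 := Units.inv_mul Φ.P
  have e : ↟(toSU hF Φ hu) - 1 = P * (uMat b - 1) * Q := by
    rw [toSU_val, Matrix.mul_sub, Matrix.sub_mul, Matrix.mul_one, hPQ]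
  have e2 : ∀ k, 1 ≤ k → (↟(toSU hF Φ hu) - 1) ^ k = P * (uMat b - 1) ^ k * Q := by
    intro k hk
    induction k, hk using Nat.le_induction with
    | base => simp [e]
    | succ k hk ih =>
      rw [pow_succ, ih, e, pow_succ]
      simp only [Matrix.mul_assoc]
      rw [← Matrix.mul_assoc Q P, hQP, Matrix.one_mul]
  refine ⟨⟨3, ?_⟩, ?_⟩
  · rw [e2 3 (by norm_num), cube_eq_zero (N := uMat b - 1) 1 b (-1) ?_, Matrix.mul_zero,
      Matrix.zero_mul]
    ext i j
    fin_cases i <;> fin_cases j <;> simp [uMat]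
  · rw [e2 (3 - 1) (by norm_num)]
    intro h
    have h' : Q * (P * (uMat b - 1) ^ (3 - 1) * Q) * P = 0 := by rw [h]; simp
    rw [← Matrix.mul_assoc, ← Matrix.mul_assoc, hQP, Matrix.one_mul, Matrix.mul_assoc, hQP,
      Matrix.mul_one] at h'
    have := congrFun (congrFun h' 0) 2
    simp [uMat, pow_two, Matrix.mul_apply, Fin.sum_univ_three] at this

/-- The lower unipotent is conjugate to the upper one. -/
theorem exists_conj {b s d t : F} (hu : IsJ hF (uMat b)) (hv : IsJ hF (vMat hF s d))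
    (hb : b + σ b = -1) (hd : d + σ d = -(s * σ s)) (ht0 : t ≠ 0) (hts : t * t = σ s * σ t) :
    ∃ g : Cfsg.SU 3 F q, g * toSU hF Φ hu * g⁻¹ = toSU hF Φ hv := by
  have hst : σ t ≠ 0 := fun h => ht0 (sigma_eq_zero hF h)
  have hts' : σ t * σ t = s * t := by
    have := congrArg σ hts
    rwa [map_mul, map_mul, sigma_two, sigma_two] at this
  have hN : s * σ s = t * σ t := by
    refine mul_right_cancel₀ (mul_ne_zero ht0 hst) ?_
    linear_combination (-(s * t)) * hts - (t * t) * hts'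
  set β := d / (t * σ t) with hβ
  have hβ1 : β + σ β = -1 := by
    rw [hβ, map_div₀, map_mul, sigma_two, mul_comm (σ t) t, ← add_div, hd, hN,
      neg_div, div_self (mul_ne_zero ht0 hst)]
  obtain ⟨x, hx⟩ := exists_sub_eq hF (a := β - b) (by
    rw [← conjQ_apply hF, map_sub]; linear_combination hβ1 - hb)
  rw [← conjQ_apply hF] at hx
  obtain ⟨y, hy⟩ := exists_trace_eq hF (a := -(x * σ x)) (by
    rw [← conjQ_apply hF, map_neg, map_mul, sigma_two, mul_comm])
  rw [← conjQ_apply hF] at hy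
  let G : M₃ := !![0, 0, (σ t)⁻¹; 0, -(σ t / t), σ t / t * σ x; t, t * x, t * y]
  have hG : IsJ hF G := by
    refine ⟨?_, fun u w => ?_⟩
    · simp [G, Matrix.det_fin_three]
      field_simp
    · simp [G, jForm, Matrix.mulVec, dotProduct, Fin.sum_univ_three, map_add, map_mul, map_neg,
        map_inv₀, map_div₀, sigma_two]
      field_simp
      linear_combination (u 2 * σ (w 2)) * hy
  refine ⟨toSU hF Φ hG, mul_inv_eq_iff_eq_mul.2 (SU_ext_vec hF Φ fun z => ?_)⟩
  rw [SU_mul_val, SU_mul_val, ← Matrix.mulVec_mulVec, ← Matrix.mulVec_mulVec, toSU_vec,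
    toSU_vec, toSU_vec, toSU_vec]
  congr 1
  rw [Matrix.mulVec_mulVec, Matrix.mulVec_mulVec]
  congr 1
  have hdv : d = β * (t * σ t) := by
    rw [hβ, div_mul_cancel₀ _ (mul_ne_zero ht0 hst)]
  ext i j
  fin_cases i <;> fin_cases j <;>
    simp [G, uMat, vMat, Matrix.mul_apply, Fin.sum_univ_three]
  all_goals field_simp
  all_goals grind

/-- A full hyperbolic plane and a full point outside give everything. -/
theorem top_of_full (hq : 3 ≤ q) {H : Subgroup (Cfsg.SU 3 F q)} {y z x : Fin 3 → F}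
    (hy : SuFull H y) (hz : SuFull H z) (hyz : h[y, z] ≠ 0) (hx : SuFull H x)
    (hout : ∀ a b : F, x ≠ a • y + b • z) : H = ⊤ := by
  set η := h[y, z] with hη
  have hzy : h[z, y] = σ η := (hf_symm hF y z).symm
  obtain ⟨α, β, w, ex, wy, wz⟩ := plane_decomp hF hy.1 hz.1 hη.symm hyz x
  have yw : h[y, w] = 0 := hf_orth_comm hF wy
  have zw : h[z, w] = 0 := hf_orth_comm hF wz
  have hw0 : w ≠ 0 := fun h => hout α β (by rw [ex, h, add_zero])
  have hww : h[w, w] ≠ 0 := by
    intro hww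
    by_cases hind : LinearIndependent F ![y, z, w]
    · have htop : Submodule.span F (Set.range ![y, z, w]) = ⊤ := by
        apply Submodule.eq_top_of_finrank_eq
        rw [finrank_span_eq_card hind, Fintype.card_fin, Module.finrank_fintype_fun_eq_card,
          Fintype.card_fin]
      refine hw0 ((isHerm_hermB hF 3).sep w fun v => ?_)
      show h[v, w] = 0
      have hv : v ∈ Submodule.span F (Set.range ![y, z, w]) := htop ▸ Submodule.mem_top
      obtain ⟨c, rfl⟩ := (Submodule.mem_span_range_iff_exists_fun F).1 hv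
      simp [Fin.sum_univ_three, hermForm_add_left hF, hermForm_smul_left hF, yw, zw, hww]
    · apply hind
      rw [Fintype.linearIndependent_iff]
      intro c hc
      simp [Fin.sum_univ_three] at hc
      have e1 := congrArg (fun v => h[v, y]) hc
      have e2 := congrArg (fun v => h[v, z]) hc
      simp [hermForm_add_left hF, hermForm_smul_left hF, hermForm_zero_left hF, hy.1, hz.1, hzy,
        wy, wz, ← hη] at e1 e2
      have c1 : c 1 = 0 := e1.resolve_right hyz
      have c0 : c 0 = 0 := e2.resolve_right hyz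
      rw [c0, c1] at hc
      simp at hc
      intro i
      fin_cases i
      · exact c0
      · exact c1
      · exact hc.resolve_right hw0
  set p := α • y + β • z with hp
  have hpy : h[p, w] = 0 := by
    rw [hp, hermForm_add_left hF, hermForm_smul_left hF, hermForm_smul_left hF, yw, zw]; ring
  have hpp : h[p, p] + h[w, w] = 0 := by
    have := hx.1
    have hwp : h[w, p] = 0 := hf_orth_comm hF hpy
    rw [ex, hermForm_add_left hF, hermForm_add_right hF p p w, hermForm_add_right hF w p w, hpy,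
      hwp] at this
    linear_combination this
  have hp0 : h[p, p] ≠ 0 := fun h => hww (by linear_combination hpp - h)
  have hform : ∀ a b a' b' : F, h[a • y + b • z, a' • y + b' • z] =
      a * σ b' * η + b * σ a' * σ η := by
    intro a b a' b'
    simp only [hermForm_add_left hF, hermForm_add_right hF, hermForm_smul_left hF,
      hf_smul_right hF, hy.1, hz.1, hzy, ← hη]
    ring
  set r := (σ η * σ α) • y + (-(η * σ β)) • z with hr
  have hrr : h[r, r] = -(η * σ η) * h[p, p] := by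
    rw [hr, hp, hform, hform]; simp only [map_mul, map_neg, sigma_two]; ring
  have hpr : h[p, r] = 0 := by
    rw [hr, hp, hform]; simp only [map_mul, map_neg, sigma_two]; ring
  have hr0 : h[r, r] ≠ 0 := by
    rw [hrr]
    exact mul_ne_zero (neg_ne_zero.2 (mul_ne_zero hyz fun h => hyz (sigma_eq_zero hF h))) hp0
  have hry : h[r, w] = 0 := by
    rw [hr, hermForm_add_left hF, hermForm_smul_left hF, hermForm_smul_left hF, yw, zw]; ring
  obtain ⟨li, -⟩ := li_of_orth3 hF hp0 hr0 hww hpr hpy hry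
  have htop : Submodule.span F (Set.range ![p, r, w]) = ⊤ := by
    apply Submodule.eq_top_of_finrank_eq
    rw [finrank_span_eq_card li, Fintype.card_fin, Module.finrank_fintype_fun_eq_card,
      Fintype.card_fin]
  have hP : ∀ a b : F, h[a • p + b • r, a • p + b • r] = 0 → SuFull H (a • p + b • r) := by
    intro a b hab
    have e : a • p + b • r = (a * α + b * (σ η * σ α)) • y + (a * β + b * (-(η * σ β))) • z := by
      rw [hp, hr]; module
    rw [e] at hab ⊢
    exact hy.pair hF hz hyz hab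
  have hall : ∀ v, h[v, v] = 0 → SuFull H v := by
    intro v hv
    have hmem : v ∈ Submodule.span F (Set.range ![p, r, w]) := htop ▸ Submodule.mem_top
    obtain ⟨c, rfl⟩ := (Submodule.mem_span_range_iff_exists_fun F).1 hmem
    simp only [Fin.sum_univ_three, Matrix.cons_val_zero, Matrix.cons_val_one, Matrix.cons_val] at hv ⊢
    exact suFull_space3 hF hpr hpy hry hp0 hr0 hpp hP (ex ▸ hx) _ _ _ hv
  refine top_le_iff.1 ?_
  rw [← su_closure_eq_top hF (by norm_num) (fun h => by omega), Subgroup.closure_le]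
  rintro A ⟨v, c, hv, hA⟩
  by_cases hv0 : v = 0
  · have : A = 1 := SU_ext (by
      rw [hA]
      refine Matrix.ext_of_mulVec_single fun i => ?_
      rw [unitaryTransvection_mulVec, hv0, smul_zero, add_zero]
      exact (Matrix.one_mulVec _).symm)
    rw [this]; exact one_mem H
  refine (hall v hv).2 c A ?_ hA
  -- the parameter has trace zero
  obtain ⟨z', hz'⟩ : ∃ z', h[z', v] ≠ 0 := by
    by_contra hcon
    push Not at hcon
    exact hv0 ((isHerm_hermB hF 3).sep v hcon)
  have key := mem_SU_iff.1 A.2 z' z'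
  rw [hA, unitaryTransvection_mulVec] at key
  simp only [hermForm_add_left hF, hermForm_add_right hF, hermForm_smul_left hF, hf_smul_right hF,
    hv, map_mul, ← hf_symm hF z' v] at key
  rw [← conjQ_apply hF]
  apply mul_left_cancel₀ (mul_ne_zero hz' fun h => hz' (sigma_eq_zero hF h))
  linear_combination key

end Cfsg.Agent.H87.SU3
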