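import Cfsg.Agent.H87.SU3.EvenCase

/-!
`SU₃(q)`, `q ≥ 3`, is generated by two conjugate regular unipotents.
-/

set_option autoImplicit false

namespace Cfsg.Agent.H87.SU3

open Cfsg.Agent.H3 Cfsg.Agent.H1

theorem two_generated {F : Type*} [Field F] [Fintype F] {q : ℕ} (hF : Fintype.card F = q ^ 2)
    (hq : 3 ≤ q) : TwoGenerated F q := by
  obtain ⟨p, e, hp, hchar, he, hqe⟩ := exists_q_eq_pow hF
  by_cases hp2 : p = 2
  · subst hp2
    refine two_generated_even hF hqe ?_
    by_contra h
    rw [show e = 1 by omega, pow_one] at hqe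
    omega
  · exact two_generated_odd hF hp hp2 hqe he

end Cfsg.Agent.H87.SU3
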