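import Mathlib

/-!
Polynomial identities for the product of an upper and a lower unipotent of trace `-1`.
-/

set_option autoImplicit false

namespace Cfsg.Agent.H87.SU3

variable {F : Type*} [Field F]

theorem odd_square {s S b B : F} (hB : B = -1 - b) (hrel : s * S * (b * B) = -(4 + s + S))
    (x0 x1 x2 : F) :
    let N := s * S
    let d := N * B
    let Z := N * (1 + 2 * b)
    let y0 := 4 + S
    let y1 := -2 * s - N - b * N
    let J := x0 * (N * (1 + 2 * B)) + x1 * (-2 * S - N - B * N) + x2 * (4 + s)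
    let m0 := fun a0 a1 a2 : F => a0 + (s * a0 + a1) + b * (d * a0 - S * a1 + a2)
    let m1 := fun a0 a1 a2 : F => (s * a0 + a1) - (d * a0 - S * a1 + a2)
    let m2 := fun a0 a1 a2 : F => d * a0 - S * a1 + a2
    Z * m0 (m0 x0 x1 x2) (m1 x0 x1 x2) (m2 x0 x1 x2) = Z * x0 - J * y0 ∧
    Z * m1 (m0 x0 x1 x2) (m1 x0 x1 x2) (m2 x0 x1 x2) = Z * x1 - J * y1 ∧
    Z * m2 (m0 x0 x1 x2) (m1 x0 x1 x2) (m2 x0 x1 x2) = Z * x2 - J * Z := by
  intro N d Z y0 y1 J m0 m1 m2
  subst hB
  simp only [N, d, Z, y0, y1, J, m0, m1, m2]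
  refine ⟨?_, ?_, ?_⟩ <;> grind

theorem odd_isotropic {s S b B : F} (hB : B = -1 - b) (hrel : s * S * (b * B) = -(4 + s + S)) :
    let N := s * S
    (4 + S) * (N * (1 + 2 * B)) + (-2 * s - N - b * N) * (-2 * S - N - B * N) +
      N * (1 + 2 * b) * (4 + s) = 0 := by
  intro N
  subst hB
  simp only [N]
  grind

theorem odd_lambda {s S b B : F} (hB : B = -1 - b) (hrel : s * S * (b * B) = -(4 + s + S)) :
    let N := s * S
    let y0 := 4 + S
    let y1 := -2 * s - N - b * N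
    let y2 := N * (1 + 2 * b)
    let z0 := 4 + s
    let z1 := -2 * S - N - B * N
    let z2 := N * (1 + 2 * B)
    let η := y0 * z2 + y1 * (z1 - z2) + y2 * (z0 + z1 + B * z2)
    let η' := z0 * y2 + z1 * (y1 - y2) + z2 * (y0 + y1 + b * y2)
    η * η' = (-64 + 12 * N + N * (s + S)) * (y2 * y2) := by
  intro N y0 y1 y2 z0 z1 z2 η η'
  subst hB
  simp only [N, y0, y1, y2, z0, z1, z2, η, η']
  grind

end Cfsg.Agent.H87.SU3
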