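import Cfsg.Agent.H87.SU3.Fields
import Cfsg.Agent.H87.SU3.Frame
import Cfsg.Agent.H87.SU3.OddIdentities

/-!
Two conjugate regular unipotents generate `SU₃(q)`, `q` odd.
-/

set_option autoImplicit false

namespace Cfsg.Agent.H87.SU3

open Matrix Cfsg.Agent.H3 Cfsg.Agent.H1

variable {F : Type*} [Field F] [Fintype F] {q p e : ℕ} (hF : Fintype.card F = q ^ 2)

local notation "h[" u ", " v "]" => Cfsg.hermForm 3 F q u v
local notation "σ" => conjQ hF
local notation "↟" g:max => ((Subtype.val g : Matrix.SpecialLinearGroup (Fin 3) F) :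
  Matrix (Fin 3) (Fin 3) F)
local notation "M₃" => Matrix (Fin 3) (Fin 3) F

attribute [-simp] conjQ_apply

variable (F q) in
/-- The conclusion of the theorem. -/
def TwoGenerated : Prop :=
  ∃ u g : Cfsg.SU 3 F q, (IsNilpotent (↟u - 1) ∧ (↟u - 1) ^ (3 - 1) ≠ 0) ∧
    Subgroup.closure ({u, g * u * g⁻¹} : Set (Cfsg.SU 3 F q)) = ⊤

omit [Fintype F] in
lemma uMat_mulVec (b : F) (x : Fin 3 → F) :
    uMat b *ᵥ x = ![x 0 + x 1 + b * x 2, x 1 - x 2, x 2] := by
  ext i
  fin_cases i <;> simp [uMat, Matrix.mulVec, dotProduct, Fin.sum_univ_three] <;> ring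

include hF

lemma vMat_mulVec (s d : F) (x : Fin 3 → F) :
    vMat hF s d *ᵥ x = ![x 0, s * x 0 + x 1, d * x 0 - σ s * x 1 + x 2] := by
  ext i
  fin_cases i <;> simp [vMat, Matrix.mulVec, dotProduct, Fin.sum_univ_three] <;> ring

lemma odd_core (Φ : HFrame hF) (hq : 3 ≤ q) (h2 : (2 : F) ≠ 0) {b s t Λ : F}
    (hb : b + σ b = -1) (hrel : s * σ s * (b * σ b) = -(4 + s + σ s))
    (hne : 1 + 2 * b ≠ 0) (hs : s ≠ 0) (ht0 : t ≠ 0) (hts : t * t = σ s * σ t)
    (hΛ : Λ = -64 + 12 * (s * σ s) + s * σ s * (s + σ s)) (hΛ0 : Λ ≠ 0)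
    (hgen : ∀ K : Subfield F, Λ ∈ K → ∀ x : F, σ x = x → x ∈ K)
    (hex : ¬ (q = 9 ∧ Λ ^ 2 = -1)) : TwoGenerated F q := by
  set B := σ b with hBdef
  set S := σ s with hSdef
  have hB : B = -1 - b := by linear_combination hb
  have hss : σ S = s := sigma_two hF s
  have hBB : σ B = b := sigma_two hF b
  set N := s * S with hN
  have hNσ : σ N = N := by rw [hN, map_mul, hss, mul_comm, ← hSdef]
  set d := N * B with hddef
  have hd : d + σ d = -(s * σ s) := by
    rw [hddef, map_mul, hNσ, hBB, ← hSdef, ← hN, hB]; ring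
  have hu : IsJ hF (uMat b) := isJ_uMat hF hb
  have hv : IsJ hF (vMat hF s d) := isJ_vMat hF hd
  obtain ⟨g, hg⟩ := exists_conj hF Φ hu hv hb hd ht0 hts
  refine ⟨toSU hF Φ hu, g, regular_toSU hF Φ hu, ?_⟩
  rw [hg]
  set U := toSU hF Φ hu
  set V := toSU hF Φ hv
  set H := Subgroup.closure ({U, V} : Set (Cfsg.SU 3 F q)) with hH
  have hU : U ∈ H := Subgroup.subset_closure (by simp)
  have hV : V ∈ H := Subgroup.subset_closure (by simp)
  have hN0 : N ≠ 0 := mul_ne_zero hs fun h => hs (sigma_eq_zero hF h)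
  set Z := N * (1 + 2 * b) with hZ
  have hZ0 : Z ≠ 0 := mul_ne_zero hN0 hne
  have hZσ : σ Z = -Z := by
    rw [hZ, map_mul, hNσ, map_add, map_one, map_mul, map_ofNat, ← hBdef, hB]; ring
  set θ := -(Z⁻¹) with hθdef
  have hθσ : σ θ = -θ := by rw [hθdef, map_neg, map_inv₀, hZσ, inv_neg]
  have hθ : θ + θ ^ q = 0 := by rw [← conjQ_apply hF, hθσ, add_neg_cancel]
  have hθ0 : θ ≠ 0 := neg_ne_zero.2 (inv_ne_zero hZ0)
  set y : Fin 3 → F := ![4 + S, -2 * s - N - b * N, Z] with hy
  have e1 : σ (-2 * s - N - b * N) = -2 * S - N - B * N := by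
    simp only [map_sub, map_mul, map_neg, map_ofNat, hNσ, ← hSdef, ← hBdef]
  have e0 : σ (4 + S) = 4 + s := by rw [map_add, map_ofNat, hss]
  have e2 : σ Z = N * (1 + 2 * B) := by
    rw [hZ, map_mul, hNσ, map_add, map_one, map_mul, map_ofNat]
  have hJ : ∀ x : Fin 3 → F, jForm hF x y =
      x 0 * (N * (1 + 2 * B)) + x 1 * (-2 * S - N - B * N) + x 2 * (4 + s) := by
    intro x
    simp only [jForm, hy, Matrix.cons_val_zero, Matrix.cons_val_one, Matrix.cons_val, e0, e1, e2]
  set Y := vec hF Φ y with hY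
  have hYY : h[Y, Y] = 0 := by
    rw [hY, vec_form, hJ]
    simpa [hy, hZ] using odd_isotropic hB hrel
  -- the square of the product is a transvection
  have hT : suTrans hF Y θ hYY hθ = U * V * (U * V) := by
    refine SU_ext_vec hF Φ fun x => ?_
    show Cfsg.unitaryTransvection 3 q Y θ *ᵥ vec hF Φ x = _
    rw [unitaryTransvection_mulVec, hY, vec_form, SU_mul_val, SU_mul_val,
      ← Matrix.mulVec_mulVec, ← Matrix.mulVec_mulVec, ← Matrix.mulVec_mulVec, toSU_vec, toSU_vec,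
      toSU_vec, toSU_vec, vec, vec, ← Matrix.mulVec_smul, ← Matrix.mulVec_add, vec]
    congr 1
    obtain ⟨i0, i1, i2⟩ := odd_square hB hrel (x 0) (x 1) (x 2)
    rw [uMat_mulVec, vMat_mulVec, uMat_mulVec, vMat_mulVec, hJ, ← hSdef]
    have hθZ : θ * Z = -1 := by rw [hθdef, neg_mul, inv_mul_cancel₀ hZ0]
    ext i
    fin_cases i
    all_goals
      simp [hy]
      apply mul_left_cancel₀ hZ0
    · linear_combination -i0 + (jForm hF x y * 0 + (x 0 * (N * (1 + 2 * B)) +
        x 1 * (-2 * S - N - B * N) + x 2 * (4 + s)) * (4 + S)) * hθZ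
    · linear_combination -i1 + (x 0 * (N * (1 + 2 * B)) + x 1 * (-2 * S - N - B * N) +
        x 2 * (4 + s)) * (-2 * s - N - b * N) * hθZ
    · linear_combination -i2 + (x 0 * (N * (1 + 2 * B)) + x 1 * (-2 * S - N - B * N) +
        x 2 * (4 + s)) * Z * hθZ
  have hmY : suTrans hF Y θ hYY hθ ∈ H := by
    rw [hT]; exact mul_mem (mul_mem hU hV) (mul_mem hU hV)
  set W := ↟U *ᵥ Y with hW
  have hWv : W = vec hF Φ (uMat b *ᵥ y) := toSU_vec hF Φ hu y
  have hWW : h[W, W] = 0 := by rw [hW, mem_SU_iff.1 U.2]; exact hYY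
  have hmW : suTrans hF W θ hWW hθ ∈ H := by
    rw [← conj_suTrans hF U hYY hθ hWW]
    exact mul_mem (mul_mem hU hmY) (inv_mem hU)
  set η := h[Y, W] with hη
  have hlam : θ * θ * (η * σ η) = Λ := by
    have key := odd_lambda hB hrel
    have eη : η = (4 + S) * σ Z + (-2 * s - N - b * N) * (σ (-2 * s - N - b * N) - σ Z) +
        Z * (σ (4 + S) + σ (-2 * s - N - b * N) + B * σ Z) := by
      rw [hη, hWv, hY, vec_form, uMat_mulVec]
      simp [jForm, hy, map_add, map_sub, map_mul, ← hBdef]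
    rw [eη]
    simp only [map_add, map_sub, map_mul, map_neg, map_ofNat, sigma_two, hBB]
    simp only [e2, ← hSdef, ← hBdef, hss, hNσ]
    rw [hΛ]
    have hθ2 : θ * θ * (Z * Z) = 1 := by rw [hθdef]; field_simp
    rw [hZ] at hθ2 ⊢
    linear_combination (θ * θ) * key + (-64 + 12 * N + N * (s + S)) * hθ2
  have hη0 : η ≠ 0 := fun h => hΛ0 (by rw [← hlam, h, zero_mul, mul_zero])
  have fY : SuFull H Y := full_pair_odd hF h2 hYY hWW hη.symm hη0 hθ0 hθ hmY hmW
    (by rw [hlam]; exact hgen) (by rw [hlam]; exact hex)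
  have fW : SuFull H W := fY.conj hF hU
  refine top_of_full hF hq fY fW hη0 (fW.conj hF hU) fun a c h => ?_
  -- the plane is not invariant
  rw [hWv, toSU_vec, hY, vec, vec, vec, ← Matrix.mulVec_smul, ← Matrix.mulVec_smul,
    ← Matrix.mulVec_add] at h
  have h' := (Matrix.mulVec_injective_iff_isUnit.2 Φ.P.isUnit) h
  rw [uMat_mulVec, uMat_mulVec, hy] at h'
  have q0 := congrFun h' 0
  have q1 := congrFun h' 1
  have q2 := congrFun h' 2
  simp at q0 q1 q2
  have hac : a + c = 1 := mul_right_cancel₀ hZ0 (by linear_combination -q2)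
  have hc : c = 2 := mul_right_cancel₀ hZ0 (by linear_combination q1 + (-2 * s - N - b * N) * hac)
  subst hc
  exact hZ0 (by linear_combination -q0 + (-(4 + S)) * hac)

/-- The odd characteristic case. -/
theorem two_generated_odd [CharP F p] (hp : p.Prime) (hp2 : p ≠ 2) (hq : q = p ^ e) (he : 1 ≤ e) :
    TwoGenerated F q := by
  classical
  obtain ⟨Φ⟩ := exists_frame hF
  obtain ⟨w, δ, hw, hδσ, hδ0, hδ, h3y, hgen⟩ := exists_odd_params hF hp hp2 hq he
  have := Fact.mk hp
  have h2 : (2 : F) ≠ 0 := fun h => hp2 ((Nat.prime_dvd_prime_iff_eq hp Nat.prime_two).1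
    ((CharP.cast_eq_zero_iff F p 2).1 (by exact_mod_cast h)))
  have hy : σ (δ * δ) = δ * δ := by rw [map_mul, hδσ]; ring
  have hq3 : 3 ≤ q := by
    rw [hq]
    exact le_trans (by have := hp.two_le; omega) (Nat.le_self_pow (by omega) p)
  have hfix : ∀ K : Subfield F, δ * δ ∈ K → ∀ x, σ x = x → x ∈ K :=
    fun K hK => fixed_mem_of_generator hF hp hq hy hgen K hK
  have hw0 : w ≠ 0 := by
    intro h
    rw [h, mul_zero, add_zero] at hδ
    rcases mul_self_eq_one_iff.1 hδ with rfl | rfl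
    · rw [map_one] at hδσ
      exact h2 (by linear_combination hδσ)
    · rw [map_neg, map_one, neg_neg] at hδσ
      exact h2 (by linear_combination -hδσ)
  have h4 : (4 : F) ≠ 0 := by
    rw [show (4 : F) = 2 * 2 by norm_num]; exact mul_ne_zero h2 h2
  by_cases hp3 : p = 3
  · -- trace one
    subst hp3
    have h30 : (3 : F) = 0 := by exact_mod_cast CharP.cast_eq_zero F 3
    obtain ⟨b, hbdef⟩ : ∃ b, b = 1 - δ / w := ⟨_, rfl⟩
    obtain ⟨s, hsdef⟩ : ∃ s, s = -1 - δ := ⟨_, rfl⟩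
    have hS : σ s = -1 + δ := by rw [hsdef, map_sub, map_neg, map_one, hδσ]; ring
    have hσb : σ b = 1 + δ / w := by
      rw [hbdef, map_sub, map_one, map_div₀, hδσ, hw]; ring
    have hs0 : s ≠ 0 := by
      intro h
      rw [hsdef] at h
      have : δ = -1 := by linear_combination -h
      rw [this, map_neg, map_one, neg_neg] at hδσ
      exact h2 (by linear_combination -hδσ)
    -- every element is of the form `t² / σ t`
    have hcop : Nat.Coprime (q - 2) (q ^ 2 - 1) := by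
      rw [show q ^ 2 - 1 = (q + 1) * (q - 1) by rw [← Nat.sq_sub_sq, one_pow]]
      refine Nat.Coprime.mul_right ?_ ?_
      · rw [show q + 1 = 3 + (q - 2) by omega, Nat.coprime_add_self_right]
        refine (Nat.prime_three.coprime_iff_not_dvd.2 fun h => ?_).symm
        have h3q : 3 ∣ q := hq ▸ dvd_pow_self 3 (by omega)
        have := Nat.dvd_sub h3q h
        omega
      · rw [show q - 1 = 1 + (q - 2) by omega, Nat.coprime_add_self_right]
        exact Nat.coprime_one_right _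
    obtain ⟨t, ht0, ht⟩ : ∃ t : F, t ≠ 0 ∧ t * t = σ s * σ t := by
      have hs' : σ s ≠ 0 := fun h => hs0 (sigma_eq_zero hF h)
      have hc : (Nat.card Fˣ).Coprime (q - 2) := by
        rw [Nat.card_units, Nat.card_eq_fintype_card, hF]; exact hcop.symm
      obtain ⟨v, hv⟩ := (powCoprime hc).surjective (Units.mk0 ((σ s)⁻¹) (inv_ne_zero hs'))
      have hv' : (v : F) ^ (q - 2) = (σ s)⁻¹ := congrArg Units.val hv
      refine ⟨v, v.ne_zero, ?_⟩
      rw [conjQ_apply hF (v : F), show (v : F) ^ q = (v : F) ^ (q - 2) * ((v : F) * v) by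
        rw [← pow_two, ← pow_add, Nat.sub_add_cancel (by omega)], hv', ← mul_assoc,
        mul_inv_cancel₀ hs', one_mul]
    refine odd_core hF Φ hq3 h2 (b := b) (s := s) (t := t) (Λ := -(δ * δ))
      ?_ ?_ ?_ hs0 ht0 ht ?_ ?_ ?_ ?_
    · rw [hσb, hbdef]; linear_combination h30
    · rw [hS, hσb, hbdef, hsdef]; field_simp
      linear_combination (δ * δ) * hδ + (w * w) * h30
    · rw [hbdef]
      intro h
      have : δ / w = 0 := by linear_combination h + (δ / w - 1) * h30
      exact hδ0 ((div_eq_zero_iff.1 this).resolve_right hw0)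
    · rw [hS, hsdef]; linear_combination (18 + 3 * (δ * δ)) * h30
    · exact neg_ne_zero.2 (mul_ne_zero hδ0 hδ0)
    · intro K hK
      exact hfix K (by simpa using K.neg_mem hK)
    · rintro ⟨rfl, h1⟩
      have he8 : δ ^ 8 = 1 := by linear_combination (δ ^ 4 - 1) * h1
      rw [conjQ_apply, show δ ^ 9 = δ ^ 8 * δ by ring, he8] at hδσ
      exact hδ0 ((mul_eq_zero.1 (show 2 * δ = 0 by linear_combination hδσ)).resolve_left h2)
  · -- trace zero
    have e3 : (3 : F) ≠ 0 := fun h => hp3 ((Nat.prime_dvd_prime_iff_eq hp Nat.prime_three).1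
      ((CharP.cast_eq_zero_iff F p 3).1 (by exact_mod_cast h)))
    obtain ⟨b, hbdef⟩ : ∃ b, b = -1 / 2 + w / (2 * δ) := ⟨_, rfl⟩
    obtain ⟨s, hsdef⟩ : ∃ s, s = 4 * δ := ⟨_, rfl⟩
    have hS : σ s = -(4 * δ) := by rw [hsdef, map_mul, map_ofNat, hδσ]; ring
    have hσb : σ b = -1 / 2 - w / (2 * δ) := by
      rw [hbdef, map_add, map_div₀, map_div₀, map_mul, map_neg, map_one, map_ofNat, hw, hδσ]
      field_simp
      ring
    refine odd_core hF Φ hq3 h2 (b := b) (s := s) (t := 4 * δ)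
      (Λ := -64 * (1 + 3 * (δ * δ))) ?_ ?_ ?_ ?_ ?_ ?_ ?_ ?_ ?_ ?_
    · rw [hσb, hbdef]; field_simp; ring
    · rw [hS, hσb, hbdef, hsdef]; field_simp
      linear_combination (-4 : F) * hδ
    · rw [hbdef]
      field_simp
      simp [hw0, hδ0]
    · rw [hsdef]; exact mul_ne_zero h4 hδ0
    · simp [hδ0, h4]
    · rw [hS, map_mul, map_ofNat, hδσ]; ring
    · rw [hS, hsdef]; ring
    · have h64 : (64 : F) ≠ 0 := by
        rw [show (64 : F) = 4 * 4 * 4 by norm_num]; exact mul_ne_zero (mul_ne_zero h4 h4) h4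
      refine mul_ne_zero (neg_ne_zero.2 h64) ?_
      rwa [add_comm]
    · intro K hK
      refine hfix K ?_
      have h64 : (64 : F) ≠ 0 := by
        rw [show (64 : F) = 4 * 4 * 4 by norm_num]; exact mul_ne_zero (mul_ne_zero h4 h4) h4
      have := K.div_mem (K.sub_mem (K.div_mem hK (K.neg_mem (natCast_mem K 64))) K.one_mem)
        (natCast_mem K 3)
      convert this using 1
      push_cast
      field_simp
      ring
    · rintro ⟨rfl, -⟩
      have : p ∣ 3 ^ 2 := by
        have h := dvd_pow_self p (show e ≠ 0 by omega)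
        rwa [← hq] at h
      exact hp3 ((Nat.prime_dvd_prime_iff_eq hp Nat.prime_three).1 (hp.dvd_of_dvd_pow this))

end Cfsg.Agent.H87.SU3
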