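import Cfsg.Agent.H87.SU3.SLTwoField
import Cfsg.Agent.H1.SuTransvBasic

/-!
A hyperbolic plane: transvection groups from two or three transvections.
-/

set_option autoImplicit false

namespace Cfsg.Agent.H87.SU3

open Matrix MatrixGroups Cfsg.Agent.H3 Cfsg.Agent.H1 Cfsg.Agent.H6

variable {F : Type*} [Field F] [Fintype F] {q n : ℕ} (hF : Fintype.card F = q ^ 2)

local notation "h[" u ", " v "]" => Cfsg.hermForm n F q u v
local notation "σ" => conjQ hF
local notation "↟" g:max => ((Subtype.val g : Matrix.SpecialLinearGroup (Fin n) F) :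
  Matrix (Fin n) (Fin n) F)
local notation "𝕍" => Fin n → F

attribute [-simp] conjQ_apply

/-- The fixed field. -/
def fixK : Subfield F := RingHom.eqLocusField σ (RingHom.id F)

lemma mem_fixK {x : F} : x ∈ fixK hF ↔ σ x = x := Iff.rfl

variable (H : Subgroup (Cfsg.SU n F q)) (a a' : Fin n → F)

/-- Elements of `SL₂` over the fixed field realised on the plane `⟨a, a'⟩` inside `H`. -/
def Realised (g : SL(2, fixK hF)) : Prop :=
  ∃ A ∈ H, ↟A *ᵥ a = ((g 0 0 : fixK hF) : F) • a + ((g 1 0 : fixK hF) : F) • a' ∧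
    ↟A *ᵥ a' = ((g 0 1 : fixK hF) : F) • a + ((g 1 1 : fixK hF) : F) • a' ∧
    ∀ w, h[w, a] = 0 → h[w, a'] = 0 → ↟A *ᵥ w = w

lemma realised_one : Realised hF H a a' 1 := by
  have e : ↟(1 : Cfsg.SU n F q) = 1 := rfl
  refine ⟨1, one_mem H, ?_, ?_, fun w _ _ => ?_⟩ <;> simp [e]

lemma realised_mul {g k : SL(2, fixK hF)} (hg : Realised hF H a a' g)
    (hk : Realised hF H a a' k) : Realised hF H a a' (g * k) := by
  obtain ⟨A, hA, A1, A2, A3⟩ := hg
  obtain ⟨B, hB, B1, B2, B3⟩ := hk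
  refine ⟨A * B, mul_mem hA hB, ?_, ?_, fun w h1 h2 => ?_⟩
  · rw [SU_mul_val, ← Matrix.mulVec_mulVec, B1, Matrix.mulVec_add, Matrix.mulVec_smul,
      Matrix.mulVec_smul, A1, A2]
    simp [sl2_mul]
    module
  · rw [SU_mul_val, ← Matrix.mulVec_mulVec, B2, Matrix.mulVec_add, Matrix.mulVec_smul,
      Matrix.mulVec_smul, A1, A2]
    simp [sl2_mul]
    module
  · rw [SU_mul_val, ← Matrix.mulVec_mulVec, B3 w h1 h2, A3 w h1 h2]

lemma realised_pow {g : SL(2, fixK hF)} (hg : Realised hF H a a' g) (k : ℕ) :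
    Realised hF H a a' (g ^ k) := by
  induction k with
  | zero => simpa using realised_one hF H a a'
  | succ k ih => rw [pow_succ]; exact realised_mul hF H a a' ih hg

/-- The realised elements form a subgroup. -/
def planeGroup : Subgroup SL(2, fixK hF) where
  carrier := {g | Realised hF H a a' g}
  one_mem' := realised_one hF H a a'
  mul_mem' := realised_mul hF H a a'
  inv_mem' {g} hg := by
    have h1 : g⁻¹ = g ^ (orderOf g - 1) := by
      refine inv_eq_of_mul_eq_one_right ?_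
      rw [← pow_succ', Nat.sub_add_cancel (isOfFinOrder_of_finite g).orderOf_pos]
      exact pow_orderOf_eq_one g
    rw [h1]
    exact realised_pow hF H a a' hg _

variable {H} {a a'}

include hF

/-- Decomposition along a hyperbolic plane. -/
lemma plane_decomp (ha : h[a, a] = 0) (ha' : h[a', a'] = 0) {δ : F} (hδ : h[a, a'] = δ)
    (hδ0 : δ ≠ 0) (x : 𝕍) :
    ∃ c d : F, ∃ w, x = c • a + d • a' + w ∧ h[w, a] = 0 ∧ h[w, a'] = 0 := by
  have hb : h[a', a] = σ δ := by rw [← hδ, hf_symm hF]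
  have hδs : σ δ ≠ 0 := fun h => hδ0 (sigma_eq_zero hF h)
  refine ⟨h[x, a'] / δ, h[x, a] / σ δ,
    x - (h[x, a'] / δ) • a - (h[x, a] / σ δ) • a', by abel, ?_, ?_⟩
  · simp only [hermForm_sub_left hF, hermForm_smul_left hF, ha, hb, mul_zero, sub_zero,
      div_mul_cancel₀ _ hδs, sub_self]
  · simp only [hermForm_sub_left hF, hermForm_smul_left hF, ha', hδ, mul_zero, sub_zero,
      div_mul_cancel₀ _ hδ0, sub_self]

lemma eq_of_plane (ha : h[a, a] = 0) (ha' : h[a', a'] = 0) {δ : F} (hδ : h[a, a'] = δ)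
    (hδ0 : δ ≠ 0) {A B : Cfsg.SU n F q} (h1 : ↟A *ᵥ a = ↟B *ᵥ a) (h2 : ↟A *ᵥ a' = ↟B *ᵥ a')
    (h3 : ∀ w, h[w, a] = 0 → h[w, a'] = 0 → ↟A *ᵥ w = ↟B *ᵥ w) : A = B := by
  refine SU_ext (Matrix.ext_of_mulVec_single fun i => ?_)
  obtain ⟨c, d, w, e, w1, w2⟩ := plane_decomp hF ha ha' hδ hδ0 (Pi.single i 1 : 𝕍)
  rw [e]
  simp only [Matrix.mulVec_add, Matrix.mulVec_smul, h1, h2, h3 w w1 w2]

/-- A transvection with centre in the plane is realised. -/
lemma realised_transv (ha : h[a, a] = 0) (ha' : h[a', a'] = 0) {δ : F} (hδ : h[a, a'] = δ)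
    {v : 𝕍} {θ : F} (hv : h[v, v] = 0) (hθ : θ + θ ^ q = 0) (hmem : suTrans hF v θ hv hθ ∈ H)
    {α β : F} (hvc : v = α • a + β • a') (g : SL(2, fixK hF))
    (e00 : ((g 0 0 : fixK hF) : F) = 1 + θ * (σ β * δ) * α)
    (e10 : ((g 1 0 : fixK hF) : F) = θ * (σ β * δ) * β)
    (e01 : ((g 0 1 : fixK hF) : F) = θ * (σ α * σ δ) * α)
    (e11 : ((g 1 1 : fixK hF) : F) = 1 + θ * (σ α * σ δ) * β) :
    g ∈ planeGroup hF H a a' := by
  have hb : h[a', a] = σ δ := by rw [← hδ, hf_symm hF]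
  have hT : ∀ x, ↟(suTrans hF v θ hv hθ) *ᵥ x = x + (θ * h[x, v]) • v := fun x =>
    unitaryTransvection_mulVec v x θ
  refine ⟨_, hmem, ?_, ?_, fun w w1 w2 => ?_⟩
  · rw [hT, hvc, hermForm_add_right hF, hf_smul_right hF, hf_smul_right hF, ha, hδ, e00, e10]
    module
  · rw [hT, hvc, hermForm_add_right hF, hf_smul_right hF, hf_smul_right hF, ha', hb, e01, e11]
    module
  · rw [hT, hvc, hermForm_add_right hF, hf_smul_right hF, hf_smul_right hF, w1, w2]
    simp

/-- If the whole of `SL₂` is realised then the first basis vector is full. -/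
lemma full_of_top (ha : h[a, a] = 0) (ha' : h[a', a'] = 0) {δ : F} (hδ : h[a, a'] = δ)
    (hδ0 : δ ≠ 0) (hδσ : σ δ = -δ) (htop : planeGroup hF H a a' = ⊤) : SuFull H a := by
  refine SuFull.of_mem hF ha fun t ht => ?_
  have ht' : σ t = -t := by rw [conjQ_apply]; exact eq_neg_of_add_eq_zero_right ht
  have hb : h[a', a] = σ δ := by rw [← hδ, hf_symm hF]
  have hk : t * σ δ ∈ fixK hF := by
    rw [mem_fixK, map_mul, ht', sigma_two, hδσ]; ring
  obtain ⟨A, hA, A1, A2, A3⟩ :=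
    (htop ▸ Subgroup.mem_top (up (⟨_, hk⟩ : fixK hF)) : up (⟨_, hk⟩ : fixK hF) ∈ planeGroup hF H a a')
  have hT : ∀ x, ↟(suTrans hF a t ha ht) *ᵥ x = x + (t * h[x, a]) • a := fun x =>
    unitaryTransvection_mulVec a x t
  convert hA using 1
  refine eq_of_plane hF ha ha' hδ hδ0 ?_ ?_ fun w w1 w2 => ?_
  · rw [hT, A1, ha]; simp [up]
  · rw [hT, A2, hb]; simp [up]; abel
  · rw [hT, A3 w w1 w2, w1]; simp

lemma fixK_closure {lam : F} (hlam : lam ∈ fixK hF)
    (hgen : ∀ K : Subfield F, lam ∈ K → ∀ x : F, σ x = x → x ∈ K) :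
    Subfield.closure ({⟨lam, hlam⟩} : Set (fixK hF)) = ⊤ := by
  refine top_le_iff.1 fun x _ => ?_
  obtain ⟨y, hy, e⟩ := hgen ((Subfield.closure ({⟨lam, hlam⟩} : Set (fixK hF))).map
    (fixK hF).subtype) ⟨⟨lam, hlam⟩, Subfield.subset_closure rfl, rfl⟩ x x.2
  exact (Subtype.ext e : y = x) ▸ hy

/-- Two transvections in odd characteristic. -/
theorem full_pair_odd (h2 : (2 : F) ≠ 0) {y z : 𝕍} {θ η : F} (hy : h[y, y] = 0)
    (hz : h[z, z] = 0) (hη : h[y, z] = η) (hη0 : η ≠ 0) (hθ0 : θ ≠ 0) (hθ : θ + θ ^ q = 0)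
    (hmy : suTrans hF y θ hy hθ ∈ H) (hmz : suTrans hF z θ hz hθ ∈ H)
    (hgen : ∀ K : Subfield F, θ * θ * (η * σ η) ∈ K → ∀ x : F, σ x = x → x ∈ K)
    (hex : ¬ (q = 9 ∧ (θ * θ * (η * σ η)) ^ 2 = -1)) : SuFull H y := by
  classical
  have hθσ : σ θ = -θ := by rw [conjQ_apply]; exact eq_neg_of_add_eq_zero_right hθ
  set k := θ * η with hk
  have hk0 : k ≠ 0 := mul_ne_zero hθ0 hη0
  set a' := k • z with ha'def
  have ha' : h[a', a'] = 0 := by
    rw [ha'def, hermForm_smul_left hF, hf_smul_right hF, hz, mul_zero, mul_zero]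
  set δ := σ k * η with hδdef
  have hδ : h[y, a'] = δ := by rw [ha'def, hf_smul_right hF, hη, hδdef]
  have hδ0 : δ ≠ 0 := mul_ne_zero (fun h => hk0 (sigma_eq_zero hF h)) hη0
  have hδσ : σ δ = -δ := by
    rw [hδdef, map_mul, sigma_two, hk, map_mul, hθσ]; ring
  set lam := θ * θ * (η * σ η) with hlamdef
  have hlamK : lam ∈ fixK hF := by
    rw [mem_fixK, hlamdef]; simp only [map_mul, sigma_two, hθσ]; ring
  have hlam0 : (⟨lam, hlamK⟩ : fixK hF) ≠ 0 := fun h =>
    mul_ne_zero (mul_ne_zero hθ0 hθ0) (mul_ne_zero hη0 (fun h => hη0 (sigma_eq_zero hF h)))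
      (congrArg Subtype.val h)
  have h2K : (2 : fixK hF) ≠ 0 := fun h => h2 (congrArg (fun x : fixK hF => (x : F)) h)
  have mem_up : up (⟨lam, hlamK⟩ : fixK hF) ∈ planeGroup hF H y a' := by
    refine realised_transv hF hy ha' hδ hy hθ hmy (α := 1) (β := 0) (by module) _ ?_ ?_ ?_ ?_
    all_goals simp [up]
    rw [hlamdef, hδdef, map_mul, sigma_two, hk]; ring
  have mem_lo : lo (1 : fixK hF) ∈ planeGroup hF H y a' := by
    refine realised_transv hF hy ha' hδ hz hθ hmz (α := 0) (β := k⁻¹) (by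
      rw [ha'def, smul_smul, inv_mul_cancel₀ hk0]; module) _ ?_ ?_ ?_ ?_
    all_goals simp [lo]
    have : σ k ≠ 0 := fun h => hk0 (sigma_eq_zero hF h)
    rw [hδdef]
    field_simp
    rw [hk]
  have hcard : Fintype.card (fixK hF) = q := by
    rw [← Nat.card_eq_fintype_card]
    refine Eq.trans ?_ (card_fixed hF)
    exact Nat.card_congr (Equiv.subtypeEquivRight fun x => by rw [mem_fixK, conjQ_apply])
  refine full_of_top hF hy ha' hδ hδ0 hδσ (top_le_iff.1 ?_)
  rcases Cfsg.Agent.S0801.result h2K ⟨lam, hlamK⟩ hlam0 (fixK_closure hF hlamK hgen) with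
    ⟨h, -⟩ | ⟨h9, hsq, -⟩
  · rw [← h, Subgroup.closure_le]
    rintro g (hg | hg)
    · rw [show g = lo 1 from Subtype.ext hg]; exact mem_lo
    · rw [show g = up _ from Subtype.ext hg]; exact mem_up
  · exact absurd ⟨hcard.symm.trans h9, by simpa using congrArg Subtype.val hsq⟩ hex

/-- Three transvections in characteristic two: the centres `e`, `f` and `e + μ f`. -/
theorem full_three_even (h2 : (2 : F) = 0) {e f : 𝕍} (he : h[e, e] = 0) (hf : h[f, f] = 0)
    (hef : h[e, f] = 1) {N μ ρ : F} (hN : σ N = N) (hN0 : N ≠ 0) (hμ : σ μ = μ) (hρ : σ ρ = ρ)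
    (hρ0 : ρ ≠ 0) (h1q : (1 : F) + 1 ^ q = 0) (hNq : N + N ^ q = 0) (hρq : ρ + ρ ^ q = 0)
    (hRiso : h[e + μ • f, e + μ • f] = 0)
    (me : suTrans hF e 1 he h1q ∈ H) (mf : suTrans hF f N hf hNq ∈ H)
    (mR : suTrans hF (e + μ • f) ρ hRiso hρq ∈ H)
    (ht : N + ρ * (N * μ + μ * μ + N) ≠ 0)
    (hgen : ∀ K : Subfield F, N ∈ K → ∀ x : F, σ x = x → x ∈ K) : SuFull H e := by
  classical
  have hneg : ∀ x : F, -x = x := fun x => by linear_combination (-x) * h2
  set a' := N • f with ha'def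
  have ha' : h[a', a'] = 0 := by
    rw [ha'def, hermForm_smul_left hF, hf_smul_right hF, hf, mul_zero, mul_zero]
  have hδ : h[e, a'] = N := by rw [ha'def, hf_smul_right hF, hef, hN, mul_one]
  have hδσ : σ N = -N := by rw [hN, hneg]
  have h2K : (2 : fixK hF) = 0 := Subtype.ext h2
  have hm : μ / N ∈ fixK hF := by rw [mem_fixK, map_div₀, hμ, hN]
  have hr : ρ * N ∈ fixK hF := by rw [mem_fixK, map_mul, hρ, hN]
  have mem_up : up (⟨N, hN⟩ : fixK hF) ∈ planeGroup hF H e a' := by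
    refine realised_transv hF he ha' hδ he h1q me (α := 1) (β := 0) (by module) _ ?_ ?_ ?_ ?_
    all_goals simp [up]
    exact hN.symm
  have mem_lo : lo (1 : fixK hF) ∈ planeGroup hF H e a' := by
    refine realised_transv hF he ha' hδ hf hNq mf (α := 0) (β := N⁻¹) (by
      rw [ha'def, smul_smul, inv_mul_cancel₀ hN0]; module) _ ?_ ?_ ?_ ?_
    all_goals simp [lo]
    rw [hN]
    field_simp
  have mem_mid : midT h2K (⟨μ / N, hm⟩ : fixK hF) ⟨ρ * N, hr⟩ ∈ planeGroup hF H e a' := by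
    refine realised_transv hF he ha' hδ hRiso hρq mR (α := 1) (β := μ / N) (by
      rw [ha'def, one_smul, smul_smul, div_mul_cancel₀ _ hN0]) _ ?_ ?_ ?_ ?_
    all_goals simp [midT, map_div₀, hμ, hN]
    all_goals ring
  refine full_of_top hF he ha' hδ hN0 hδσ (eq_top_of_three h2K ?_ (fixK_closure hF hN hgen)
    mem_up mem_lo mem_mid ?_ ?_)
  · exact fun h => hN0 (congrArg Subtype.val h)
  · exact fun h => mul_ne_zero hρ0 hN0 (congrArg Subtype.val h)
  · intro h
    apply ht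
    have := congrArg Subtype.val h
    simp at this
    field_simp at this
    linear_combination this

end Cfsg.Agent.H87.SU3
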