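import Cfsg.Agent.S0801

/-!
Generation of `SL₂` in characteristic two by three involutions.
-/

set_option autoImplicit false

namespace Cfsg.Agent.H87.SU3

open Matrix MatrixGroups Cfsg.Agent.H6

variable {F : Type*} [Field F]

/-- The transvection with centre `(1, m)`. -/
def midT (h2 : (2 : F) = 0) (m r : F) : SL(2, F) :=
  sl2 (1 + r * m) r (r * (m * m)) (1 + r * m) (by linear_combination r * m * h2)

lemma up_lo_tr (h2 : (2 : F) = 0) (lam : F) : tr (up lam * lo 1) = lam := by
  simp [tr, up, lo, sl2_mul]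
  linear_combination h2

variable [Fintype F] in
/-- Three involutions with generating trace and non-dihedral product generate. -/
theorem eq_top_of_three (h2 : (2 : F) = 0) {lam m r : F} (hlam : lam ≠ 0)
    (hgen : Subfield.closure ({lam} : Set F) = ⊤) {G : Subgroup SL(2, F)} (hu : up lam ∈ G)
    (hl : lo 1 ∈ G) (hm : midT h2 m r ∈ G) (hr : r ≠ 0)
    (ht : lam + lam * r * m + lam * r * (m * m) + r ≠ 0) : G = ⊤ := by
  classical
  have : CharP F 2 := CharTwo.of_one_ne_zero_of_two_eq_zero one_ne_zero h2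
  have := Fact.mk Nat.prime_two
  have hπ : Function.Injective (π : SL(2, F) → PSL(2, F)) := by
    intro x y h
    rcases π_eq_iff.1 h with e | e
    · exact e
    · rw [e]
      apply sl2_ext <;> simp [sl2_neg, CharTwo.neg_eq]
  have hns : ∀ x : SL(2, F), tr x = 0 → ¬ IsSS (π x) := by
    intro x hx
    rw [isSS_π, hx]
    simp [show (4 : F) = 0 by linear_combination 2 * h2]
  have htm : tr (midT h2 m r) = 0 := by
    simp [tr, midT]; linear_combination (1 + r * m) * h2
  have htu : tr (up lam) = 0 := by simp [tr, up]; linear_combination h2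
  have htl : tr (lo (1 : F)) = 0 := by simp [tr, lo]; linear_combination h2
  have ht3 : tr (up lam * lo 1 * midT h2 m r) ≠ 0 := by
    intro h
    apply ht
    simp [tr, up, lo, midT, sl2_mul] at h
    linear_combination h - (1 + r * m) * h2
  set H := G.map π with hH
  have mu : π (up lam) ∈ H := Subgroup.mem_map_of_mem _ hu
  have ml : π (lo (1 : F)) ∈ H := Subgroup.mem_map_of_mem _ hl
  have mm : π (midT h2 m r) ∈ H := Subgroup.mem_map_of_mem _ hm
  have hsq : ∀ x : SL(2, F), tr x = 0 → π x * π x = 1 := fun x hx => by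
    have d := sl2_det x
    simp only [tr] at hx
    rw [← map_mul, π_eq_one_iff_isScal]
    refine ⟨?_, ?_, ?_⟩ <;> simp [sl2_mul] <;> grind
  have hnc : π (up lam) * π (lo 1) ≠ π (lo 1) * π (up lam) := by
    rw [← map_mul, ← map_mul]
    intro e
    have := congrArg (fun z : SL(2, F) => z 0 0) (hπ e)
    simp [up, lo, sl2_mul, hlam] at this
  have hne : ∀ {x : SL(2, F)}, x ≠ 1 → π x ≠ 1 := fun hx h => hx (hπ (h.trans (map_one _).symm))
  have hl1 : π (lo (1 : F)) ≠ 1 := hne fun h => by
    have := congrArg (fun z : SL(2, F) => z 1 0) h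
    simp [lo] at this
  obtain ⟨c, hc⟩ := exists_outcome 2 H
  have hdvd : 2 ∣ Nat.card (cj c H) := by
    rw [card_cj]
    have : orderOf (π (lo (1 : F))) = 2 :=
      orderOf_eq_prime (by rw [sq]; exact hsq _ htl) hl1
    have hd := Subgroup.orderOf_dvd_natCard H ml
    rwa [this] at hd
  cases hc with
  | triv h => omega
  | s4 h e hp' => exact absurd hdvd hp'
  | a5 h e h3 => exact absurd (h3 hdvd) (by norm_num)
  | a4 h e =>
    exfalso
    obtain ⟨e⟩ := e
    have key : ∀ x y : alternatingGroup (Fin 4), x * x = 1 → y * y = 1 → x * y = y * x := by decide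
    have cu : c * π (up lam) * c⁻¹ ∈ cj c H := Subgroup.mem_map_of_mem _ mu
    have cl : c * π (lo 1) * c⁻¹ ∈ cj c H := Subgroup.mem_map_of_mem _ ml
    have sq1 : ∀ x : PSL(2, F), x * x = 1 → ∀ hx : c * x * c⁻¹ ∈ cj c H,
        e ⟨_, hx⟩ * e ⟨_, hx⟩ = 1 := fun x hx hm => by
      rw [← map_mul, e.map_eq_one_iff]
      refine Subtype.ext ?_
      show c * x * c⁻¹ * (c * x * c⁻¹) = 1
      rw [show c * x * c⁻¹ * (c * x * c⁻¹) = c * (x * x) * c⁻¹ by group, hx]
      simp
    have h' := key _ _ (sq1 _ (hsq _ htu) cu) (sq1 _ (hsq _ htl) cl)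
    rw [← map_mul, ← map_mul] at h'
    have h'' := congrArg Subtype.val (e.injective h')
    apply hnc
    simpa [mul_assoc] using congrArg (fun z => c⁻¹ * z * c) h''
  | bor h =>
    exfalso
    obtain ⟨d, hd⟩ := h
    rw [cj_cj] at hd
    have key : ∀ {x : SL(2, F)}, π x ∈ H → tr x = 0 → (d * c) * π x * (d * c)⁻¹ ∈ Uinf F := by
      intro x hx hxs
      have hb := hd (Subgroup.mem_map_of_mem (MulAut.conj (d * c)).toMonoidHom hx)
      refine (chiB_eq_one_iff ⟨_, hb⟩).1 (by_contra fun hne' => hns x hxs ?_)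
      simpa [mul_assoc] using isSS_conj (c := (d * c)⁻¹) (isSS_of_chiB hne')
    obtain ⟨a, ha⟩ := mem_Uinf.1 (key mu htu)
    obtain ⟨b, hb⟩ := mem_Uinf.1 (key ml htl)
    apply hnc
    have hab : π (up a) * π (up b) = π (up b) * π (up a) := by
      rw [← map_mul, ← map_mul, ← up_add, ← up_add, add_comm]
    rw [ha, hb] at hab
    simpa [mul_assoc] using congrArg (fun z => (d * c)⁻¹ * z * (d * c)) hab
  | dih h =>
    exfalso
    obtain ⟨g, hg, hle⟩ := h
    have out : ∀ x : SL(2, F), π x ∈ H → tr x = 0 →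
        ∀ y ∈ tor g, π x ≠ 1 → c * π x * c⁻¹ * y * (c * π x * c⁻¹)⁻¹ = y⁻¹ := by
      intro x hx htx y hy hx1
      have hcx : c * π x * c⁻¹ ∈ torDih g := hle (Subgroup.mem_map_of_mem _ hx)
      refine (outside_torDih hg hcx ?_).2.2 y hy
      intro hmem
      apply hns x htx
      have := isSS_of_mem_isTor ⟨g, hg, rfl⟩ hmem (fun h => hx1 (by
        simpa [mul_assoc] using congrArg (fun z => c⁻¹ * z * c) h))
      simpa [mul_assoc] using isSS_conj (c := c⁻¹) this
    -- the product of two involutions lies in the torus, that of three squares to one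
    have hP : c * π (up lam * lo 1) * c⁻¹ ∈ tor g := by
      by_contra hnot
      have hcx : c * π (up lam * lo 1) * c⁻¹ ∈ torDih g :=
        hle (Subgroup.mem_map_of_mem _ (Subgroup.mem_map_of_mem _ (mul_mem hu hl)))
      obtain ⟨h1, -, -⟩ := outside_torDih hg hcx hnot
      have h2' : π (up lam * lo 1) ^ 2 = 1 := by
        rw [sq]
        simpa [mul_assoc] using congrArg (fun z => c⁻¹ * z * c) h1
      have hne1 : π (up lam * lo (1 : F)) ≠ 1 := fun h => hnc (by
        rw [map_mul] at h
        rw [h, eq_inv_of_mul_eq_one_left h]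
        group)
      have := (tr_sq_of_pow hne1).1 h2'
      rw [up_lo_tr h2] at this
      exact hlam this
    have hm1 : π (midT h2 m r) ≠ 1 := by
      intro hm1
      have hm' : midT h2 m r = 1 := hπ (hm1.trans (map_one _).symm)
      have h00 := congrArg (fun z : SL(2, F) => z 0 1) hm'
      simp [midT] at h00
      exact hr h00
    have hinv := out _ mm htm _ hP hm1
    have hz : π (up lam * lo 1 * midT h2 m r) ^ 2 = 1 := by
      rw [map_mul, sq]
      set P := π (up lam * lo 1)
      set M := π (midT h2 m r)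
      have e : M * P * M⁻¹ = P⁻¹ := by
        have := congrArg (fun z => c⁻¹ * z * c) hinv
        simpa [mul_assoc] using this
      have eM : M⁻¹ = M := inv_eq_of_mul_eq_one_right (hsq _ htm)
      rw [eM] at e
      calc P * M * (P * M) = P * (M * P * M) := by group
        _ = 1 := by rw [e, mul_inv_cancel]
    apply ht3
    by_cases h1 : π (up lam * lo 1 * midT h2 m r) = 1
    · rw [hπ (h1.trans (map_one _).symm)]
      simp [tr]; linear_combination h2
    · exact (tr_sq_of_pow h1).1 hz
  | gen h =>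
    obtain ⟨r', k, hG⟩ := h
    obtain ⟨K, hKr, htr, -⟩ := gen_structure hG
    obtain ⟨-, -, -, hk1, hkr, hcard, -, -⟩ := hG
    obtain ⟨d, rfl⟩ := π_surjective c
    have htrH : ∀ g : SL(2, F), π g ∈ H → tr g ^ 2 ∈ K := fun g hg => by
      rw [← tr_conj d g]
      refine htr _ ?_
      rw [map_mul, map_mul, map_inv]
      exact Subgroup.mem_map_of_mem _ hg
    have hlamK : lam ∈ K := by
      have h1 := htrH _ (Subgroup.mem_map_of_mem _ (mul_mem hu hl))
      rw [up_lo_tr h2] at h1
      obtain ⟨n, -, hn⟩ := FiniteField.card F 2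
      obtain ⟨j, hj⟩ : ∃ j, Fintype.card F = 2 * j := ⟨2 ^ ((n : ℕ) - 1), by
        rw [hn, ← pow_succ']; congr 1; have := n.pos; omega⟩
      rw [← FiniteField.pow_card lam, hj, pow_mul]
      exact K.pow_mem h1 j
    have htop : K = ⊤ := top_le_iff.1 (hgen ▸ Subfield.closure_le.2 (Set.singleton_subset_iff.2 hlamK))
    have hrq : r' = Fintype.card F := by
      rw [← hKr, htop, ← Nat.card_eq_fintype_card]
      exact Nat.card_congr Subfield.topEquiv.toEquiv
    have hpsl := card_psl2_mul (F := F) (q := Fintype.card F) rfl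
    have heven : 2 ∣ Fintype.card F := by
      obtain ⟨n, -, hn⟩ := FiniteField.card F 2
      rw [hn]; exact dvd_pow_self 2 n.ne_zero
    have hq1 : 1 < Fintype.card F := Fintype.one_lt_card
    have hg1 : Nat.gcd 2 (Fintype.card F - 1) = 1 :=
      (Nat.prime_two.coprime_iff_not_dvd).2 (by omega)
    rw [hg1, mul_one] at hpsl
    have hk : k + 1 = r' := hkr.resolve_left fun h => by omega
    have hHtop : H = ⊤ := by
      refine Subgroup.eq_top_of_le_card _ ?_
      rw [← card_cj (π d) H, hcard, hpsl, show Fintype.card F ^ 2 - 1 =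
        (Fintype.card F + 1) * (Fintype.card F - 1) by rw [← Nat.sq_sub_sq, one_pow], ← hrq,
        show k = r' - 1 by omega]
      exact le_of_eq (by ring)
    refine eq_top_iff.2 fun g _ => ?_
    obtain ⟨g', hg', e⟩ := (hHtop ▸ Subgroup.mem_top (π g) : π g ∈ H)
    exact hπ e ▸ hg'

end Cfsg.Agent.H87.SU3
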